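import Cfsg.Agent.Sg.SFT
import Cfsg.Agent.R1.SC
import Cfsg.Agent.H6.FStar
import Cfsg.Agent.FT.BG1.A

/-! Goldschmidt, Part II: components of the core-free quotients of involution centralisers. -/

set_option autoImplicit false
set_option linter.unusedSectionVars false

namespace Cfsg.Agent.Go

open Subgroup Cfsg Cfsg.Agent.H1 Cfsg.Agent.L Cfsg.Agent.FT Cfsg.Agent.Sg Cfsg.Agent.R1
  Cfsg.Agent.H6
open scoped Pointwise commutatorElement

universe u

/-- `D` is transitive on the nontrivial cosets of `B` in `A` -/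
def Tr {Y : Type*} [Group Y] (A B D : Subgroup Y) : Prop :=
  ∀ u ∈ A, ∀ v ∈ A, u ∉ B → v ∉ B → ∃ d ∈ D, d * u * d⁻¹ * v⁻¹ ∈ B

/-- the action of `A` on a component `K` that it does not centralise -/
structure CK {Y : Type*} [Group Y] (A K : Subgroup Y) : Prop where
  as : A ≤ A ⊓ K ⊔ A ⊓ 𝐂(K)
  q4 : 4 ≤ (𝐂(K)).relIndex A
  tr : Tr A 𝐂(K) (K ⊓ 𝐍(A))

/-- a core-free group with the structure of all components -/
structure CF {Y : Type*} [Group Y] (A : Subgroup Y) : Prop where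
  sc : SC A
  sq : Sq A
  core : core {2}ᶜ (⊤ : Subgroup Y) = ⊥
  ck : ∀ K, IsComponent K → ¬ A ≤ 𝐂(K) → CK A K

section Y

variable {Y : Type*} [Group Y] {A B D K K' H R U : Subgroup Y} {y : Y}

theorem Tr.mono (h : Tr A B D) (hD : D ≤ H) : Tr A B H := fun u hu v hv u1 v1 =>
  let ⟨d, hd, e⟩ := h u hu v hv u1 v1; ⟨d, hD hd, e⟩

theorem Tr.le_or (h : Tr A B D) (hU : U ≤ A) (hn : D ≤ 𝐍(U)) : U ≤ B ∨ A ≤ U ⊔ B := by
  by_cases h1 : U ≤ B
  · exact Or.inl h1
  obtain ⟨u, hu, u1⟩ := SetLike.not_le_iff_exists.1 h1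
  refine Or.inr fun v hv => ?_
  by_cases v1 : v ∈ B
  · exact mem_sup_right v1
  obtain ⟨d, hd, e⟩ := h u (hU hu) v hv u1 v1
  have := mul_mem (inv_mem (mem_sup_right (S := U) e)) (mem_sup_left (le_norm_iff.1 hn d hd u hu))
  simpa [mul_assoc] using this

theorem Tr.not_comm (h : Tr A B D) (q4 : 4 ≤ B.relIndex A) : ¬ ⁅A, D⁆ ≤ B := fun hc => by
  have h2 : B.relIndex A ∣ 2 := by
    by_cases h1 : A ≤ B
    · rw [relIndex_eq_one.2 h1]; norm_num
    obtain ⟨v, hv, v1⟩ := SetLike.not_le_iff_exists.1 h1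
    refine relIndex_dvd_two_iff.2 ⟨v⁻¹, inv_mem hv, fun u hu => or_iff_not_imp_right.2 fun u1 => ?_⟩
    obtain ⟨d, hd, e⟩ := h u hu v hv u1 v1
    have := mul_mem (hc (commutator_mem_commutator hu hd)) e
    simpa [commutatorElement_def, mul_assoc] using this
  have := Nat.le_of_dvd two_pos h2
  omega

theorem Tr.comm_sup (h : Tr A B D) (q4 : 4 ≤ B.relIndex A) (hD : D ≤ 𝐍(A)) : A ≤ ⁅A, D⁆ ⊔ B :=
  (h.le_or (comm_le_left hD) (right_le_norm_comm A D)).resolve_left (h.not_comm q4)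

theorem comp_conj (h : IsComponent K) (y : Y) : IsComponent (y ⋆ K) := isComponent_cj h y

theorem comp_ne (h : IsComponent K) (h' : IsComponent K') (ne : K ≠ K') : K' ≤ 𝐂(K) := by
  rcases comp_le_or_of_isSubnormal h h'.1 with h1 | h1
  · rcases comp_le_or_of_isSubnormal h' h.1 with h2 | h2
    · exact absurd (le_antisymm h1 h2) ne
    · exact le_cent_symm h2
  · exact h1

theorem layer_le_norm (h : IsComponent K) : layer Y ≤ 𝐍(K) := layer_le_iff.2 fun K' h' => by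
  by_cases e : K = K'
  · exact e ▸ le_normalizer
  · exact le_norm_of_le_cent (comp_ne h h' e)

theorem cent_layer_le (h : IsComponent K) : 𝐂(layer Y) ≤ 𝐂(K) := cent_anti (comp_le_layer h)

theorem le_cent_layer (h : ∀ K, IsComponent K → H ≤ 𝐂(K)) : H ≤ 𝐂(layer Y) :=
  le_cent_symm (layer_le_iff.2 fun K hK => le_cent_symm (h K hK))

theorem CF.norm (h : CF A) (hK : IsComponent K) : A ≤ 𝐍(K) := by
  by_cases h1 : A ≤ 𝐂(K)
  · exact le_norm_of_le_cent h1
  · exact (h.ck K hK h1).as.trans (sup_le (inf_le_right.trans le_normalizer)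
      (le_norm_of_le_cent inf_le_right))

theorem sq_norm (h : Sq A) (h1 : H ≤ A) (h2 : U ≤ A) : H ≤ 𝐍(U) :=
  le_norm_of_le_cent (h1.trans (le_cent_of_le h.cent h2))

theorem sq_mem_sup (h : Sq A) (h1 : H ≤ A) (h2 : U ≤ A) (hy : y ∈ H ⊔ U) :
    ∃ a ∈ H, ∃ b ∈ U, a * b = y :=
  let ⟨a, ha, b, hb, e⟩ := (setProd_sup (Or.inl (sq_norm h h2 h1))).2.2 y hy; ⟨a, ha, b, hb, e.symm⟩

variable [Finite Y]

theorem comp_not_sol (h : IsComponent K) (hs : Group.IsSolvable H) : ¬ K ≤ H := fun h1 => by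
  have h2 : K ≠ ⊥ := fun e => qs_not_le_centralizer h.2 (by rw [e]; exact bot_le)
  exact (der1_lt (sol_of_le hs h1) h2).ne (qs_commutator h.2)

theorem comp_cent_of_sol (h : IsComponent K) (hs : Group.IsSolvable H) (hn : K ≤ 𝐍(H)) :
    H ≤ 𝐂(K) := (comp_le_or h hn).resolve_left (comp_not_sol h hs)

/-- a subgroup centralising `O₂` and all components is a `2`-group -/
theorem le_two_of_cent (hO : core {2}ᶜ (⊤ : Subgroup Y) = ⊥) (h2 : R ≤ 𝐂(core {2} (⊤ : Subgroup Y)))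
    (hE : R ≤ 𝐂(layer Y)) : R ≤ core {2} ⊤ := by
  have h3 : generalizedFittingSubgroup Y ≤ 𝐂(R) := fstar_le_iff.2 ⟨le_cent_symm hE, fun r hr => by
    rw [← core_top_eq_pCore hr]
    by_cases e : r = 2
    · subst e; exact le_cent_symm h2
    · exact ((core_mono_pi (by simpa using Ne.symm e) ⊤).trans hO.le).trans bot_le⟩
  have h4 := (le_cent_symm h3).trans centralizer_fstar_le
  rw [← fit_eq_core Nat.prime_two hO]
  exact h4.trans (sSup_le fun N hN => le_fit (NormalIn.top_iff.2 hN.1) hN.2)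

theorem odd_triv (hO : core {2}ᶜ (⊤ : Subgroup Y) = ⊥) (ho : Odd #|R|)
    (h2 : R ≤ 𝐂(core {2} (⊤ : Subgroup Y))) (hE : ∀ K, IsComponent K → R ≤ 𝐂(K)) : R = ⊥ :=
  le_bot_iff.1 ((le_inf le_rfl (le_two_of_cent hO h2 (le_cent_layer hE))).trans
    (inf_eq_bot_of_two (core_pgroup Nat.prime_two _) ho).le)

theorem CF.split (h : CF A) : A ≤ A ⊓ layer Y ⊔ A ⊓ 𝐂(layer Y) := by
  classical
  have key : ∀ S : Finset (Subgroup Y), (∀ K ∈ S, IsComponent K) →
      ∀ a ∈ A, ∃ e ∈ A ⊓ layer Y, ∃ c ∈ A, (∀ K ∈ S, c ∈ 𝐂(K)) ∧ e * c = a := by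
    intro S
    induction S using Finset.induction_on with
    | empty => exact fun _ a ha => ⟨1, one_mem _, a, ha, by simp, one_mul a⟩
    | insert K S hK ih =>
      intro hS a ha
      obtain ⟨e, he, c, hc, h1, rfl⟩ := ih (fun K' h' => hS K' (Finset.mem_insert_of_mem h')) a ha
      have cK := hS K (Finset.mem_insert_self _ _)
      by_cases h2 : A ≤ 𝐂(K)
      · exact ⟨e, he, c, hc, fun K' h' => (Finset.mem_insert.1 h').elim (fun e' => e' ▸ h2 hc)
          (h1 K'), rfl⟩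
      obtain ⟨k, hk, c', hc', rfl⟩ := sq_mem_sup h.sq inf_le_left inf_le_left ((h.ck K cK h2).as hc)
      refine ⟨e * k, mul_mem he ⟨hk.1, comp_le_layer cK hk.2⟩, c', hc'.1, fun K' h' => ?_, mul_assoc ..⟩
      rcases Finset.mem_insert.1 h' with e' | h'
      · exact e' ▸ hc'.2
      · exact (mul_mem_cancel_left (comp_ne (hS K' (Finset.mem_insert_of_mem h')) cK
          (fun e' => hK (e' ▸ h')) hk.2)).1 (h1 K' h')
  intro a ha
  obtain ⟨e, he, c, hc, h1, rfl⟩ := key (Set.toFinite {K : Subgroup Y | IsComponent K}).toFinset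
    (fun K hK => by simpa using hK) a ha
  refine mul_mem_sup he ⟨hc, le_cent_layer (H := zpowers c) (fun K hK => zpowers_le.2 (h1 K ?_))
    (mem_zpowers c)⟩
  simpa using hK

theorem sc_inf_normal (h : SC A) (hn : H.Normal) (h2 : A ⊓ H ≤ core {2} ⊤) : (A ⊓ H).Normal := by
  have h1 : core {2} (⊤ : Subgroup Y) ≤ 𝐍(A) := h.sci.norm_le_of_two (core_pgroup Nat.prime_two _)
    le_top (le_top.trans (core_normal _ _).norm)
  exact ⟨fun a ha g => ⟨h.mem a ha.1 g (h1 ((core_normal _ _).conj_mem trivial (h2 ha))),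
    hn.conj_mem a ha.2 g⟩⟩

theorem inf_cent_layer_le (h : SC A) (hO : core {2}ᶜ (⊤ : Subgroup Y) = ⊥) :
    A ⊓ 𝐂(layer Y) ≤ core {2} ⊤ := by
  set P := core {2} (⊤ : Subgroup Y)
  have nP : P ⊴ ⊤ := core_normal _ _
  have h1 : P ≤ 𝐍(A) := h.sci.norm_le_of_two (core_pgroup Nat.prime_two _) le_top
    (le_top.trans nP.norm)
  have n1 : A ⊓ P ⊴ ⊤ := NormalIn.top_iff.2 (sc_inf_normal h (NormalIn.top_iff.1 nP) inf_le_right)
  have nE : layer Y ⊴ ⊤ := NormalIn.top_iff.2 layer_normal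
  set Z := 𝐂(layer Y) ⊓ (𝐂(A ⊓ P) ⊓ centMod P (A ⊓ P))
  have nZ : Z ⊴ ⊤ := ⟨le_top, le_normalizer_inf (le_norm_cent nE.norm)
    (le_normalizer_inf (le_norm_cent n1.norm) (le_norm_centMod nP.norm n1.norm))⟩
  have hZ : IsPGroup 2 Z := isPGroup_of_forall_coprime fun x hx ho => by
    have c : (#|P|).Coprime #|zpowers x| := by
      rw [Nat.card_zpowers]
      exact pgroup_coprime Nat.prime_two (core_pgroup Nat.prime_two _)
        ((Nat.Prime.coprime_iff_not_dvd Nat.prime_two).1 ho.symm)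
    have h3 : zpowers x ≤ 𝐂(P) := B1.stable_factor_cent ⟨inf_le_right, le_top.trans n1.norm⟩
      (le_top.trans nP.norm) (zpowers_le.2 hx.2.1) (le_centMod_iff.1 (zpowers_le.2 hx.2.2)).2.2 c
    have h4 := le_two_of_cent hO h3 (zpowers_le.2 hx.1)
    exact eq_one_of_isPGroup_of_coprime (core_pgroup Nat.prime_two _) (h4 (mem_zpowers x)) ho
  refine le_trans (le_inf inf_le_right (inf_le_left.trans (le_inf (le_cent_of_le h.comm inf_le_left)
    (le_centMod_iff.2 ⟨le_top.trans nP.norm, le_top.trans n1.norm, ?_⟩))))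
    (le_core_of_pgroup Nat.prime_two nZ hZ)
  exact le_inf (comm_le_right h1) (comm_le_left (le_top.trans nP.norm))

theorem inf_cent_layer_normal (h : SC A) (hO : core {2}ᶜ (⊤ : Subgroup Y) = ⊥) :
    (A ⊓ 𝐂(layer Y)).Normal :=
  sc_inf_normal h (NormalIn.top_iff.1 ⟨le_top, le_norm_cent (NormalIn.top_iff.2 layer_normal).norm⟩)
    (inf_cent_layer_le h hO)

theorem CF.ea (h : CF A) : layer Y ⊔ A ⊴ ⊤ := by
  have : layer Y ⊔ A = layer Y ⊔ A ⊓ 𝐂(layer Y) := le_antisymm (sup_le le_sup_left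
    (h.split.trans (sup_le_sup_right inf_le_right _))) (sup_le_sup_left inf_le_left _)
  rw [this]
  exact (NormalIn.top_iff.2 layer_normal).sup (NormalIn.top_iff.2 (inf_cent_layer_normal h.sc h.core))

theorem CF.dec (h : CF A) (y : Y) : ∃ e ∈ layer Y, ∃ n ∈ 𝐍(A), e * n = y := by
  obtain ⟨c, hc, e⟩ := h.sc.conj_eq le_sup_right (conj_le_of_mem_norm (h.ea.norm (mem_top y)) le_sup_right)
  obtain ⟨l, hl, a, ha, rfl⟩ := ((NormalIn.top_iff.2 layer_normal).mem_sup le_top).1 hc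
  refine ⟨l, hl, a * ((l * a)⁻¹ * y), mul_mem (le_normalizer ha) (conj_eq_conj_iff_norm.1 e.symm), by group⟩

theorem CF.top (h : CF A) : layer Y ⊔ 𝐍(A) = ⊤ := eq_top_iff.2 fun y _ => by
  obtain ⟨e, he, n, hn, rfl⟩ := h.dec y
  exact mul_mem_sup he hn

theorem CF.cent_conj (h : CF A) (hK : IsComponent K) (hc : A ≤ 𝐂(y ⋆ K)) : A ≤ 𝐂(K) := by
  obtain ⟨e, he, n, hn, rfl⟩ := h.dec y
  rwa [mul_conj, conj_of_mem_norm (layer_le_norm (comp_conj hK n) he), ← conj_cent,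
    ← conj_of_mem_norm hn, conj_le_conj_iff] at hc

/-- the image of `O(C(g)) ∩ C(c)` centralises `O₂` -/
theorem cent_two (hy : y * y = 1) (ho : Odd #|R|) (hR : R ≤ 𝐂[y]) (hn : 𝐂[y] ≤ 𝐍(R)) :
    R ≤ 𝐂(core {2} (⊤ : Subgroup Y)) := by
  have nP : core {2} (⊤ : Subgroup Y) ⊴ ⊤ := core_normal _ _
  have p2 := core_pgroup Nat.prime_two (⊤ : Subgroup Y)
  refine thompson_P_times_Q (two_zpowers hy) (Nat.coprime_two_right.2 ho)
    (le_cent_symm (by rwa [cent_zpowers])) _ p2 (le_top.trans nP.norm) (le_top.trans nP.norm) ?_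
  rw [cent_zpowers]
  refine le_cent_of_disjoint ?_ (inf_le_right.trans hn) ?_
  · exact le_normalizer_inf (le_top.trans nP.norm) (hR.trans le_normalizer)
  · rw [inf_comm]; exact inf_eq_bot_of_two (p2.to_le inf_le_left) ho

end Y

end Cfsg.Agent.Go
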