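import Cfsg.Agent.Go.Big1

/-! Goldschmidt, Part II: data `B = C_A(K)`. -/

set_option autoImplicit false
set_option linter.unusedSectionVars false

namespace Cfsg.Agent.Go

open Subgroup Cfsg Cfsg.Agent.H1 Cfsg.Agent.L Cfsg.Agent.FT Cfsg.Agent.Sg Cfsg.Agent.R1
  Cfsg.Agent.H6
open scoped Pointwise commutatorElement

universe u

variable {G : Type u} [Group G]

/-- `f` presents `C(g)/O(C(g))` -/
structure Loc {Y : Type*} [Group Y] (g : G) (f : 𝐂[g] →* Y) : Prop where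
  surj : Function.Surjective f
  ker : mker f = core {2}ᶜ 𝐂[g]

/-- structure of the components of all `C(g)/O(C(g))`, `g ∈ A#` -/
def StG (A : Subgroup G) : Prop :=
  ∀ g ∈ A, g ≠ 1 → ∀ (Y : Type u) [Group Y] [Finite Y] (f : 𝐂[g] →* Y), Loc g f →
    ∀ K : Subgroup Y, IsComponent K → ¬ mim f A ≤ 𝐂(K) → CK (mim f A) K

def DatAt (A : Subgroup G) {D : Subgroup G} {Y : Type*} [Group Y] (f : D →* Y) (K : Subgroup Y)
    (B : Subgroup G) : Prop :=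
  IsComponent K ∧ ¬ mim f A ≤ 𝐂(K) ∧ B = A ⊓ mpre f 𝐂(K)

def Dat (A B : Subgroup G) : Prop :=
  ∃ g ∈ A, g ≠ 1 ∧ ∃ (Y : Type u) (_ : Group Y) (_ : Finite Y) (f : 𝐂[g] →* Y) (K : Subgroup Y),
    Loc g f ∧ DatAt A f K B

/-- a datum of maximal index -/
def MDat (A B : Subgroup G) : Prop :=
  Dat A B ∧ ∀ B', Dat A B' → B'.relIndex A ≤ B.relIndex A

structure Ctx (A : Subgroup G) : Prop where
  sc : SC A
  sq : Sq A
  st : StG A

instance instNormalOc (g : G) : ((core {2}ᶜ 𝐂[g]).subgroupOf 𝐂[g]).Normal := (core_normal _ _).normal_subgroupOf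

abbrev Yq (g : G) : Type u := 𝐂[g] ⧸ (core {2}ᶜ 𝐂[g]).subgroupOf 𝐂[g]

def fq (g : G) : 𝐂[g] →* Yq g := QuotientGroup.mk' _

theorem loc_fq (g : G) : Loc g (fq g) := ⟨QuotientGroup.mk'_surjective _, by
  rw [mker_eq, fq, QuotientGroup.ker_mk', subOf_map (core_le _ _)]⟩

/-- conjugation of centralisers -/
def cjHom (n g : G) : 𝐂[n * g * n⁻¹] →* 𝐂[g] where
  toFun x := ⟨n⁻¹ * x * n, mem_conj.1 (by rw [conj_cent1]; exact x.2)⟩
  map_one' := Subtype.ext (by simp)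
  map_mul' x y := Subtype.ext (by simp only [coe_mul]; group)

variable {Y : Type*} [Group Y] {A B B' B'' D H P U : Subgroup G} {K K' X : Subgroup Y} {g n a b : G}

theorem cjHom_surj (n g : G) : Function.Surjective (cjHom n g) := fun y =>
  ⟨⟨n * y * n⁻¹, by rw [← conj_cent1]; exact conj_mem_conj n y.2⟩,
    Subtype.ext (by simp only [cjHom, MonoidHom.coe_mk, OneHom.coe_mk]; group)⟩

theorem mpre_cjHom (f : 𝐂[g] →* Y) (n : G) (X : Subgroup Y) :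
    mpre (f.comp (cjHom n g)) X = n ⋆ mpre f X := by
  ext x
  rw [mem_conj, mem_mpre, mem_mpre]
  exact ⟨fun ⟨h, e⟩ => ⟨_, e⟩, fun ⟨h, e⟩ => ⟨by rw [← conj_cent1]; exact mem_conj.2 h, e⟩⟩

theorem mim_cjHom (f : 𝐂[g] →* Y) (n : G) (H : Subgroup G) :
    mim (f.comp (cjHom n g)) (n ⋆ H) = mim f H := by
  ext y
  refine ⟨fun ⟨x, hx, e⟩ => ⟨cjHom n g x, mem_conj.1 hx, e⟩, fun ⟨x, hx, e⟩ => ?_⟩
  obtain ⟨z, rfl⟩ := cjHom_surj n g x
  exact ⟨z, mem_conj.2 hx, e⟩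

theorem Loc.conj {f : 𝐂[g] →* Y} (h : Loc g f) (n : G) : Loc (n * g * n⁻¹) (f.comp (cjHom n g)) :=
  ⟨h.surj.comp (cjHom_surj n g), by
    rw [mker, mpre_cjHom, ← mker, h.ker, conj_core, conj_cent1]⟩

theorem Dat.conj (h : Dat A B) (hn : n ∈ 𝐍(A)) : Dat A (n ⋆ B) := by
  obtain ⟨g, hg, g1, Y, _, _, f, K, l, h1, h2, h3⟩ := h
  refine ⟨n * g * n⁻¹, (mem_normalizer_iff.1 hn g).1 hg, by simpa using g1, Y, inferInstance,
    inferInstance, _, K, l.conj n, h1, ?_, ?_⟩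
  · rwa [← conj_of_mem_norm hn, mim_cjHom]
  · rw [mpre_cjHom, h3, conj_inf, conj_of_mem_norm hn]

theorem MDat.conj (h : MDat A B) (hn : n ∈ 𝐍(A)) : MDat A (n ⋆ B) :=
  ⟨h.1.conj hn, fun B' h' => (h.2 B' h').trans (by
    conv_rhs => rw [← conj_of_mem_norm hn, relIndex_conj])⟩

theorem MDat.idx (h : MDat A B) (h' : MDat A B') : B'.relIndex A = B.relIndex A :=
  le_antisymm (h.2 _ h'.1) (h'.2 _ h.1)

theorem norm_mpre (f : D →* Y) (hX : X ⊴ ⊤) : D ≤ 𝐍(mpre f X) :=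
  le_norm_mpre le_rfl (le_top.trans hX.norm)

theorem DatAt.le {f : D →* Y} (h : DatAt A f K B) : B ≤ A := h.2.2.le.trans inf_le_left

theorem DatAt.cent {f : D →* Y} (h : DatAt A f K B) : mim f B ≤ 𝐂(K) :=
  (mim_mono f (h.2.2.le.trans inf_le_right)).trans (mim_mpre_le _ _)

theorem DatAt.le_of {f : D →* Y} (h : DatAt A f K B) (hA : A ≤ D) (hU : U ≤ A)
    (hc : mim f U ≤ 𝐂(K)) : U ≤ B :=
  (le_inf hU (le_mpre_of_mim_le (hU.trans hA) hc)).trans h.2.2.ge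

theorem DatAt.idx {f : D →* Y} (h : DatAt A f K B) (hA : A ≤ D) :
    B.relIndex A = (𝐂(K)).relIndex (mim f A) := by
  rw [h.2.2, inf_relIndex_left, relIndex_mpre f _ hA]

theorem DatAt.not_le {f : D →* Y} (h : DatAt A f K B) : ¬ A ≤ B := fun e =>
  h.2.1 ((mim_mono f e).trans h.cent)

theorem DatAt.inf_le {f : D →* Y} (h : DatAt A f K B) (h' : DatAt A f K' B') (ne : B ≠ B') :
    A ⊓ mpre f K' ≤ B :=
  (inf_le_inf_left A (mpre_mono f (comp_ne h.1 h'.1 fun e => ne (by rw [h.2.2, h'.2.2, e])))).trans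
    h.2.2.ge

theorem DatAt.tr_of {f : D →* Y} (h : DatAt A f K B) (hA : A ≤ D) (ck : CK (mim f A) K)
    (h1 : K ⊓ 𝐍(mim f A) ≤ mim f H) (h2 : H ≤ 𝐍(A)) : Tr A B H := fun u hu v hv u1 v1 => by
  have k : ∀ w (hw : w ∈ A), w ∈ B ↔ f ⟨w, hA hw⟩ ∈ 𝐂(K) := fun w hw => by
    rw [h.2.2, mem_inf, and_iff_right hw, ← coe_mem_mpre]
  obtain ⟨d, hd, e⟩ := ck.tr _ (mem_mim_of_mem f ⟨u, hA hu⟩ hu) _ (mem_mim_of_mem f ⟨v, hA hv⟩ hv)
    (mt (k u hu).2 u1) (mt (k v hv).2 v1)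
  obtain ⟨x, hx, rfl⟩ := h1 hd
  refine ⟨x, hx, (k _ (mul_mem (le_norm_iff.1 h2 x hx u hu) (inv_mem hv))).2 ?_⟩
  rw [← map_inv, ← map_inv, ← map_mul, ← map_mul, ← map_mul] at e
  exact e

theorem Dat.le (h : Dat A B) : B ≤ A := by
  obtain ⟨g, hg, g1, Y, _, _, f, K, l, h⟩ := h
  exact h.le

theorem Dat.not_le (h : Dat A B) : ¬ A ≤ B := by
  obtain ⟨g, hg, g1, Y, _, _, f, K, l, h⟩ := h
  exact h.not_le

variable [Finite G]

theorem DatAt.sup {f : D →* Y} (h : DatAt A f K B) (hA : A ≤ D) (sq : Sq A) (ck : CK (mim f A) K) :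
    A ≤ A ⊓ mpre f K ⊔ B := fun a ha => by
  obtain ⟨k, hk, c, hc, e⟩ := sq_mem_sup (sq.mim f) inf_le_left inf_le_left
    (ck.as (mem_mim_of_mem f ⟨a, hA ha⟩ ha))
  obtain ⟨x, hx, rfl⟩ := mem_mim.1 (mem_inf.1 hk).1
  have : (x : G)⁻¹ * a ∈ B := by
    rw [h.2.2]
    refine mem_inf.2 ⟨mul_mem (inv_mem hx) ha, (coe_mem_mpre (x := x⁻¹ * ⟨a, hA ha⟩)).2 ?_⟩
    rw [map_mul, map_inv, ← e, inv_mul_cancel_left]
    exact hc.2
  simpa using mul_mem_sup (show (x : G) ∈ A ⊓ mpre f K from ⟨hx, coe_mem_mpre.2 hk.2⟩) this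

theorem eq_of_relIndex (h1 : B' ≤ B) (h2 : B ≤ A) (h : B'.relIndex A ≤ B.relIndex A) : B' = B := by
  have e := relIndex_mul_relIndex B' B A h1 h2
  have p := Nat.pos_of_ne_zero (relIndex_ne_zero' B A)
  have p' := Nat.pos_of_ne_zero (relIndex_ne_zero' B' B)
  exact le_antisymm h1 (relIndex_eq_one.1 (by nlinarith))

theorem lift {f : D →* Y} (h : SC A) (h1 : A ≤ H) (h2 : H ≤ D) :
    mim f H ⊓ 𝐍(mim f A) ≤ mim f (H ⊓ 𝐍(A)) := by
  rintro _ ⟨⟨x, hx, rfl⟩, hn⟩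
  have hA := h1.trans h2
  have h3 : (x : G) ⋆ A ≤ A ⊔ mker f := (mim_le_mim_iff (conj_le_of_mem x.2 hA) hA).1
    (by rw [mim_conj, conj_of_mem_norm hn])
  obtain ⟨c, hc, e⟩ := h.conj_eq (le_inf h1 le_sup_left) (le_inf (conj_le_of_mem hx h1) h3)
  have h4 : f ⟨c, h2 hc.1⟩ ∈ mim f A := mim_sup_mker f hA ▸ mem_mim_of_mem f ⟨c, h2 hc.1⟩ hc.2
  obtain ⟨a, ha, e'⟩ := mem_mim.1 h4
  refine mem_mim.2 ⟨a * (⟨c, h2 hc.1⟩ : D)⁻¹ * x,
    mem_inf.2 ⟨mul_mem (mul_mem (h1 ha) (inv_mem (mem_inf.1 hc).1)) hx, ?_⟩, by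
    rw [map_mul, map_mul, map_inv, e', mul_inv_cancel, one_mul]⟩
  have := mul_mem (le_normalizer (H := A) ha) (conj_eq_conj_iff_norm.1 e.symm)
  rwa [← mul_assoc] at this

theorem odd_core (M : Subgroup G) : Odd #|core {2}ᶜ M| := odd_iff_piGrp.2 (core_pi _ M)

namespace Loc

variable {f : 𝐂[g] →* Y}

theorem top (h : Loc g f) : mim f 𝐂[g] = ⊤ := eq_top_iff.2 fun y _ =>
  let ⟨x, e⟩ := h.surj y; ⟨x, x.2, e⟩

theorem mim_mpre (h : Loc g f) (X : Subgroup Y) : mim f (mpre f X) = X :=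
  FT.mim_mpre (H := 𝐂[g]) (le_top.trans h.top.ge)

theorem odd (h : Loc g f) : Odd #|mker f| := h.ker ▸ odd_core _

theorem core_bot [Finite Y] (h : Loc g f) : core {2}ᶜ (⊤ : Subgroup Y) = ⊥ := by
  have := mpre_core (f := f) (π := {2}ᶜ) le_rfl (mker_le f) (odd_iff_piGrp.1 h.odd)
  rw [← h.mim_mpre (core _ _), ← h.top, this, ← h.ker, mim_mker]

theorem cent (h : Loc g f) (hP : IsPGroup 2 P) (h1 : P ≤ 𝐂[g]) : mim f 𝐂(P) = 𝐂(mim f P) := by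
  rw [← mim_inf_dom, inf_comm, mim_inf_cent h1 (mker_le f) (cop_two hP h.odd)
    (Or.inr (sol_of_odd h.odd)), h.top, top_inf_eq]

theorem cent1 (h : Loc g f) (x : 𝐂[g]) (h1 : (x : G) * x = 1) : mim f 𝐂[(x : G)] = 𝐂[f x] := by
  rw [← cent_zpowers (x : G), h.cent (two_zpowers h1) (zpowers_le.2 x.2), mim_zpowers, cent_zpowers]

theorem le_cent (h : Loc g f) (hA : IsPGroup 2 A) (h0 : A ≤ 𝐂[g]) (hB : B ≤ A) (h1 : H ≤ 𝐂[g])
    (h2 : H ≤ 𝐍(A)) (hc : mim f H ≤ 𝐂(mim f B)) : H ≤ 𝐂(B) :=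
  comm_eq_bot_iff.1 (le_bot_iff.1 ((le_inf ((comm_le_mker_iff h1 (hB.trans h0)).2 hc)
    ((commutator_mono le_rfl hB).trans (comm_le_right h2))).trans (inf_eq_bot_of_two hA h.odd).le))

theorem mem_dat (l : Loc g f) (hg : g ∈ A) (h : DatAt A f K B) : g ∈ B := by
  rw [h.2.2]
  refine ⟨hg, (coe_mem_mpre (x := ⟨g, self_mem_cent1 g⟩)).2 (mem_cent.2 fun y _ => ?_)⟩
  obtain ⟨x, rfl⟩ := l.surj y
  rw [← map_mul, ← map_mul]
  exact congrArg f (Subtype.ext (mem_cent1.1 x.2))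

end Loc

theorem Ctx.cf (h : Ctx A) {Y : Type u} [Group Y] [Finite Y] {f : 𝐂[g] →* Y} (l : Loc g f)
    (hg : g ∈ A) (g1 : g ≠ 1) : CF (mim f A) :=
  ⟨(h.sc.sci.mono (h.sq.cent1 hg) le_top).sub.map f l.surj, h.sq.mim f, l.core_bot,
    h.st g hg g1 Y f l⟩

section
variable {Y : Type u} [Group Y] [Finite Y] {f : 𝐂[g] →* Y} {K K' : Subgroup Y}

theorem DatAt.ck (d : DatAt A f K B) (h : Ctx A) (l : Loc g f) (hg : g ∈ A) (g1 : g ≠ 1) :
    CK (mim f A) K := h.st g hg g1 Y f l K d.1 d.2.1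

theorem DatAt.q4 (d : DatAt A f K B) (h : Ctx A) (l : Loc g f) (hg : g ∈ A) (g1 : g ≠ 1) :
    4 ≤ B.relIndex A := d.idx (h.sq.cent1 hg) ▸ (d.ck h l hg g1).q4

/-- the canonical transitive group `N_{K~}(A)` -/
theorem DatAt.tr (d : DatAt A f K B) (h : Ctx A) (l : Loc g f) (hg : g ∈ A) (g1 : g ≠ 1) :
    Tr A B (mpre f K ⊓ 𝐍(A)) ∧ mpre f K ⊓ 𝐍(A) ≤ 𝐂(B) := by
  have hA := h.sq.cent1 hg
  refine ⟨d.tr_of hA (d.ck h l hg g1) ?_ inf_le_right, l.le_cent h.sq.two hA d.le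
    (inf_le_left.trans (mpre_le _ _)) inf_le_right ?_⟩
  · rw [mim_inf_norm hA (mker_le_mpre _ _) (h.sq.cop l.odd) (Or.inr (sol_of_odd l.odd)), l.mim_mpre]
  · exact ((mim_mono f inf_le_left).trans (mim_mpre_le _ _)).trans (le_cent_symm d.cent)

theorem DatAt.comp_le (d : DatAt A f K B) (h : Ctx A) (l : Loc g f) (hg : g ∈ A) :
    K ≤ mim f 𝐂(B) := by
  rw [l.cent (h.sq.two.to_le d.le) (d.le.trans (h.sq.cent1 hg))]
  exact le_cent_symm d.cent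

end

theorem Dat.q4 (d : Dat A B) (h : Ctx A) : 4 ≤ B.relIndex A := by
  obtain ⟨g, hg, g1, Y, _, _, f, K, l, d⟩ := d
  exact d.q4 h l hg g1

theorem Dat.ne_bot (d : Dat A B) : B ≠ ⊥ := by
  obtain ⟨g, hg, g1, Y, _, _, f, K, l, d⟩ := d
  exact ne_bot_of_mem (l.mem_dat hg d) g1

theorem Dat.tr (d : Dat A B) (h : Ctx A) : Tr A B (𝐍(A) ⊓ 𝐂(B)) := by
  obtain ⟨g, hg, g1, Y, _, _, f, K, l, d⟩ := d
  exact (d.tr h l hg g1).1.mono (le_inf inf_le_right (d.tr h l hg g1).2)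

/-- a maximal datum is seen in the centraliser of each of its involutions -/
theorem MDat.at (d : MDat A B) (h : Ctx A) (hb : b ∈ B) (b1 : b ≠ 1) {Y' : Type u} [Group Y']
    [Finite Y'] {f' : 𝐂[b] →* Y'} (l' : Loc b f') : ∃ K', DatAt A f' K' B := by
  obtain ⟨⟨g, hg, g1, Y, _, _, f, K, l, d⟩, mx⟩ := d
  have hA := h.sq.cent1 hg
  have hA' := h.sq.cent1 (d.le hb)
  have cf := h.cf (Y := Y') l' (d.le hb) b1
  have AC : A ≤ 𝐂(B) := le_cent_of_le h.sq.cent d.le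
  have key : ∀ X : Subgroup Y', X ⊴ ⊤ → K ≤ 𝐍(mim f (𝐂(B) ⊓ mpre f' X)) := fun X hX =>
    (d.comp_le h l hg).trans (mim_le_norm f (le_normalizer_inf le_normalizer
      ((cent_le_cent1 hb).trans (norm_mpre f' hX))))
  set H := 𝐂(B) ⊓ mpre f' (layer Y' ⊔ mim f' A)
  have AH : A ≤ H := le_inf AC (le_mpre_of_mim_le hA' le_sup_right)
  have h1 : K ≤ mim f H := (comp_le_or d.1 (key _ cf.ea)).resolve_right fun e =>
    d.2.1 ((mim_mono f AH).trans e)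
  have HC : H ≤ 𝐂[g] := inf_le_left.trans (cent_le_cent1 (l.mem_dat hg d))
  have HC' : H ⊓ 𝐍(A) ≤ 𝐂[b] := inf_le_left.trans (inf_le_left.trans (cent_le_cent1 hb))
  have tr : Tr A B (H ⊓ 𝐍(A)) := d.tr_of hA (d.ck h l hg g1)
    ((inf_le_inf_right _ h1).trans (lift h.sc AH HC)) inf_le_right
  have cA : ⁅A, H ⊓ 𝐍(A)⁆ ≤ A := comm_le_left inf_le_right
  by_contra hne
  have h2 : mim f' ⁅A, H ⊓ 𝐍(A)⁆ ≤ 𝐂(layer Y') := le_cent_layer fun K' hK' => by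
    by_cases c : mim f' A ≤ 𝐂(K')
    · exact (mim_mono f' cA).trans c
    have d' : DatAt A f' K' (A ⊓ mpre f' 𝐂(K')) := ⟨hK', c, rfl⟩
    have hn : H ⊓ 𝐍(A) ≤ 𝐍(A ⊓ mpre f' 𝐂(K')) := le_normalizer_inf inf_le_right
      (le_norm_mpre HC' (le_norm_cent (((mim_mono f' (inf_le_left.trans inf_le_right)).trans
        (mim_mpre_le _ _)).trans (sup_le (layer_le_norm hK') (cf.norm hK')))))
    rcases tr.le_or d'.le hn with e | e
    · exact absurd ⟨K', eq_of_relIndex e d.le (mx _ ⟨b, d.le hb, b1, Y', inferInstance,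
        inferInstance, f', K', l', d'⟩) ▸ d'⟩ hne
    · refine (mim_mono f' ((commutator_mono e le_rfl).trans (comm_sup_left_le (comm_le_left hn) ?_
        le_normalizer (sq_norm h.sq d.le d'.le)))).trans d'.cent
      exact (comm_eq_bot_iff'.2 (inf_le_left.trans inf_le_left)).le.trans bot_le
  have h3 := comp_cent_of_sol d.1 (sol_mim (sol_of_le (sol_mpre (sol_of_pgroup Nat.prime_two
    (cf.sq.two.to_le inf_le_left)) (sol_of_odd l'.odd)) inf_le_right) f)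
    (key _ (NormalIn.top_iff.2 (inf_cent_layer_normal cf.sc cf.core)))
  exact tr.not_comm (d.q4 h l hg g1) (d.le_of hA cA ((mim_mono f (le_inf (cA.trans AC)
    (le_mpre_of_mim_le (cA.trans hA') (le_inf (mim_mono f' cA) h2)))).trans h3))

theorem MDat.sup (d : MDat A B) (d' : MDat A B') (h : Ctx A) (ne : B ≠ B') (hm : B ⊓ B' ≠ ⊥) :
    A ≤ B ⊔ B' := by
  obtain ⟨b, hb, b1⟩ := exists_mem_ne_one hm
  obtain ⟨K, k⟩ := d.at h hb.1 b1 (loc_fq b)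
  obtain ⟨K', k'⟩ := d'.at h hb.2 b1 (loc_fq b)
  exact (k'.sup (h.sq.cent1 (d.1.le hb.1)) h.sq (k'.ck h (loc_fq b) (d.1.le hb.1) b1)).trans
    (sup_le_sup_right (k.inf_le k' ne) _)

/-- three distinct maximal data with a common involution -/
theorem MDat.three (d : MDat A B) (d' : MDat A B') (d'' : MDat A B'') (h : Ctx A) (n1 : B ≠ B'')
    (n2 : B' ≠ B'') (hm : B ⊓ B' ≠ ⊥) : ¬ B ⊓ B' ≤ B'' := fun e => by
  obtain ⟨b, hb, b1⟩ := exists_mem_ne_one hm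
  obtain ⟨K, k⟩ := d.at h hb.1 b1 (loc_fq b)
  obtain ⟨K', k'⟩ := d'.at h hb.2 b1 (loc_fq b)
  obtain ⟨K'', k''⟩ := d''.at h (e hb) b1 (loc_fq b)
  exact k''.not_le ((k''.sup (h.sq.cent1 (d.1.le hb.1)) h.sq (k''.ck h (loc_fq b) (d.1.le hb.1)
    b1)).trans (sup_le ((le_inf (k.inf_le k'' n1) (k'.inf_le k'' n2)).trans e) le_rfl))

/-- `C_N(B)` normalises every maximal datum meeting `B` -/
theorem MDat.norm (d : MDat A B) (d' : MDat A B') (h : Ctx A) (hm : B ⊓ B' ≠ ⊥) :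
    𝐍(A) ⊓ 𝐂(B) ≤ 𝐍(B') := fun n hn => by
  by_cases e : B = B'
  · exact e ▸ cent_le_norm B hn.2
  rw [← conj_eq_self_iff]
  by_contra e'
  have hB : n ⋆ B = B := conj_of_mem_norm (cent_le_norm B hn.2)
  refine d.three d' (d'.conj hn.1) h (fun e'' => e (conj_eq_conj_iff.1 (hB.trans e''))) (Ne.symm e') hm
    fun x hx => mem_conj.2 ?_
  rw [mul_assoc, mem_cent.1 hn.2 x hx.1, inv_mul_cancel_left]
  exact hx.2

theorem MDat.card (d : MDat A B) (d' : MDat A B') : #|B'| = #|B| := by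
  have h1 := card_mul_relIndex_of_le d.1.le
  have h2 := card_mul_relIndex_of_le d'.1.le
  rw [d.idx d', ← h1] at h2
  exact Nat.eq_of_mul_eq_mul_right (Nat.pos_of_ne_zero (relIndex_ne_zero' B A)) h2

/-- trivial intersection in the small case -/
theorem MDat.ti (d : MDat A B) (d' : MDat A B') (h : Ctx A) (sm : #|B| ≤ B.relIndex A)
    (hm : B ⊓ B' ≠ ⊥) : B = B' := by
  by_contra ne
  have h1 := (setProd_sup (Or.inl (sq_norm h.sq d'.1.le d.1.le))).card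
  rw [le_antisymm (sup_le d.1.le d'.1.le) (d.sup d' h ne hm), d.card d',
    ← card_mul_relIndex_of_le d.1.le, mul_assoc] at h1
  have h2 := Nat.eq_of_mul_eq_mul_left Nat.card_pos h1
  have h3 : 1 < #|B ⊓ B'| := (one_lt_card_iff_ne_bot _).2 hm
  have := d.1.q4 h
  nlinarith

theorem MDat.meet (d : MDat A B) (d' : MDat A B') (big : B.relIndex A < #|B|) : B ⊓ B' ≠ ⊥ :=
  fun e => by
  have h1 := relIndex_le_of_le_right (H := B') d.1.le (relIndex_ne_zero' _ _)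
  rw [← inf_relIndex_left, e, relIndex_bot_left, d.idx d'] at h1
  omega

end Cfsg.Agent.Go
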