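import Cfsg.Agent.Go.SmI
import Cfsg.Agent.Be.I

/-! Interface for Goldschmidt's theorem on strongly closed abelian `2`-subgroups (S1169). -/

set_option autoImplicit false

namespace Cfsg.Agent.Go

open Subgroup Cfsg Cfsg.Agent.H1 Cfsg.Agent.L Cfsg.Agent.FT Cfsg.Agent.Sg Cfsg.Agent.R1
open scoped Pointwise commutatorElement

section
variable {X : Type*} [Group X]

/-- `A O(C(a))` is normal in `C(a)` for all `a ∈ A#` -/
def Hyp0 (A : Subgroup X) : Prop := ∀ a ∈ A, a ≠ 1 → 𝐂[a] ≤ 𝐍(A ⊔ core {2}ᶜ 𝐂[a])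

/-- `N(A)` is transitive on `A#` -/
def TrN (A : Subgroup X) : Prop := ∀ a ∈ A, ∀ b ∈ A, a ≠ 1 → b ≠ 1 → ∃ n ∈ 𝐍(A), n * a * n⁻¹ = b

/-- the abelian Sylow alternative -/
structure AB (A : Subgroup X) : Prop where
  syl : L.IsSylowIn 2 A ⊤
  tr : TrN A
  card : #|A| = 4 ∨ #|A| = 8 ∧ ¬ Hyp0 A

/-- all `C(a)`, `a ∈ A#`, lie in a proper subgroup -/
def Done (A : Subgroup X) : Prop := ∃ M : Subgroup X, M ≠ ⊤ ∧ ∀ a ∈ A, a ≠ 1 → 𝐂[a] ≤ M

end

/-- the conclusion of the theorem for the (nonabelian simple) group `X` -/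
def ThmG (X : Type*) [Group X] : Prop :=
  ∀ A : Subgroup X, A ≠ ⊥ → Sq A → SC A → (∃ H : Subgroup X, IsStronglyEmbedded H) ∨ AB A

/-- the induction hypothesis -/
def IH (n : ℕ) : Prop :=
  ∀ (X : Type) [Group X] [Finite X] [IsSimpleGroup X], Nat.card X < n →
    (¬ ∀ x y : X, x * y = y * x) → ThmG X

theorem IH.mono {m n : ℕ} (h : IH n) (hm : m ≤ n) : IH m := fun X _ _ _ hX => h X (hX.trans_le hm)

/-- Part I: the case `Hyp0` -/
class PartI : Prop where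
  main : ∀ {G : Type} [Group G] [Finite G] [IsSimpleGroup G] {A : Subgroup G}, IH (Nat.card G) →
    SC A → Sq A → 4 ≤ #|A| → (∀ U ≤ A, 𝐍(A) ≤ 𝐍(U) → U = ⊥ ∨ U = A) → Hyp0 A →
    Done A ∨ (∃ H : Subgroup G, IsStronglyEmbedded H) ∨ AB A

end Cfsg.Agent.Go
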