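import Cfsg.Agent.Be.P1M

/-! Part II of notes/goldschmidt.md, case `|B| ≤ q`: the data and the first step (`E = 1`). -/

set_option autoImplicit false
set_option maxHeartbeats 400000

namespace Cfsg.Agent.Go.Sm

open Subgroup MulAction Cfsg.Agent.H1 Cfsg.Agent.L Cfsg.Agent.FT Cfsg.Agent.FT.B1 Cfsg.Agent.Be.P1
open scoped Pointwise commutatorElement

variable {H : Type*} [Group H] {A B D P B' D' P' U V W X : Subgroup H} {a b f g n δ : H} {p : ℕ}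

/-- subgroups, acted on by conjugation -/
def Sj (H : Type*) [Group H] := Subgroup H

instance instSjAct : MulAction H (Sj H) :=
  MulAction.compHom (Subgroup H) (MulAut.conj : H →* MulAut H)

/-- a subgroup as a point -/
def sj (W : Subgroup H) : Sj H := W

/-- an element as a point -/
def cj (x : H) : Cj H := x

theorem st_sj (W : Subgroup H) : stabilizer H (sj W) = 𝐍(W) :=
  Subgroup.ext fun _ => conj_eq_self_iff

theorem st_cj (x : H) : stabilizer H (cj x) = 𝐂[x] :=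
  Subgroup.ext fun g => Iff.trans (a := g * x * g⁻¹ = x) mul_inv_eq_iff_eq_mul mem_cent1.symm

/-- the data of the small case -/
structure Dat (A B D P : Subgroup H) : Prop where
  hA : IsElementaryAbelian 2 A
  nA : A.Normal
  irr : ∀ U ≤ A, U.Normal → U = ⊥ ∨ U = A
  hB : B ≤ A
  B1 : B ≠ ⊥
  q4 : 4 ≤ B.relIndex A
  ti : ∀ n, B ⊓ n ⋆ B ≠ ⊥ → n ∈ 𝐍(B)
  DC : D ≤ 𝐂(B)
  ND : 𝐍(B) ≤ 𝐍(D)
  tr : ∀ u ∈ A, ∀ v ∈ A, u ∉ B → v ∉ B → ∃ d ∈ D, d * u * d⁻¹ * v⁻¹ ∈ B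
  hP : P ⊴ D
  P2 : IsPGroup 2 P
  Po : Odd (P.relIndex D)
  fx : ∀ x ∈ P, ∃ a ∈ A, a ∉ B ∧ x * a = a * x
  f4 : B.relIndex A = 4 → P ≤ A ∨ ((phi P).relIndex P = 16 ∧
    ∃ δ ∈ D ⊓ 𝐂(A), (∃ k, δ ^ 5 ^ k = 1) ∧ ¬ ⁅P, zpowers δ⁆ ≤ phi P)

theorem le_norm_of_normal (N : Subgroup H) [N.Normal] (X : Subgroup H) : X ≤ 𝐍(N) := by
  rw [normalizer_eq_top]; exact le_top

theorem conj_normal (N : Subgroup H) [N.Normal] (n : H) : n ⋆ N = N :=
  conj_of_mem_norm (le_norm_of_normal N ⊤ trivial)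

theorem comm_aux (c : H) (e : a * f = f * a) :
    ⁅c * a * c⁻¹, f * c * f⁻¹ * c⁻¹⁆ = ⁅c * a * c⁻¹, f⁆ := by
  simp only [commutatorElement_def]
  calc _ = c * a * c⁻¹ * f * c * ((a * f)⁻¹ * f) * c⁻¹ * f⁻¹ := by group
    _ = _ := by rw [e]; group

namespace Dat
variable (h : Dat A B D P)
include h

theorem nrm (X : Subgroup H) : X ≤ 𝐍(A) := haveI := h.nA; le_norm_of_normal A X

theorem cjA (n : H) : n ⋆ A = A := haveI := h.nA; conj_normal A n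

theorem cjm (n : H) (ha : a ∈ A) : n * a * n⁻¹ ∈ A := h.nA.conj_mem a ha n

theorem nC : (𝐂(A)).Normal := haveI := h.nA; inferInstance

theorem AC : A ≤ 𝐂(A) := le_cent_self h.hA.1

theorem sq (ha : a ∈ A) : a * a = 1 := by rw [← pow_two]; exact h.hA.2 a ha

theorem inv (ha : a ∈ A) : a⁻¹ = a := inv_eq_of_mul_eq_one_right (h.sq ha)

theorem cm (ha : a ∈ A) (hb : b ∈ A) : a * b = b * a := mul_comm_of_comm h.hA.1 ha hb

theorem cA (hW : W ≤ A) : A ≤ 𝐍(W) := le_norm_of_le_cent (le_cent_of_le h.AC hW)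

theorem conj (n : H) : Dat A (n ⋆ B) (n ⋆ D) (n ⋆ P) where
  hA := h.hA
  nA := h.nA
  irr := h.irr
  hB := by rw [← h.cjA n]; exact conj_mono n h.hB
  B1 := conj_ne_bot n h.B1
  q4 := by rw [← h.cjA n, relIndex_conj]; exact h.q4
  ti := fun m hm => by
    rw [← conj_norm, mem_conj]
    refine h.ti _ fun e => hm ?_
    rw [← conj_eq_bot_iff (g := n⁻¹), conj_inf, inv_conj_conj, ← mul_conj, ← mul_conj, e]
  DC := by rw [← conj_cent]; exact conj_mono n h.DC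
  ND := by rw [← conj_norm, ← conj_norm]; exact conj_mono n h.ND
  tr := fun u hu v hv h1 h2 => by
    obtain ⟨d, hd, e⟩ := h.tr _ (h.nA.conj_mem' u hu n) _ (h.nA.conj_mem' v hv n)
      (mt mem_conj.2 h1) (mt mem_conj.2 h2)
    exact ⟨_, conj_mem_conj n hd, mem_conj.2 (by convert e using 1; group)⟩
  hP := h.hP.conj n
  P2 := pgroup_conj h.P2 n
  Po := by rw [relIndex_conj]; exact h.Po
  fx := fun x hx => by
    obtain ⟨y, hy, rfl⟩ := mem_conj'.1 hx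
    obtain ⟨a, ha, h1, e⟩ := h.fx y hy
    refine ⟨_, h.cjm n ha, mt conj_mem_conj_iff.1 h1, ?_⟩
    calc _ = n * (y * a) * n⁻¹ := by group
      _ = _ := by rw [e]; group
  f4 := fun e => by
    rw [← h.cjA n, relIndex_conj] at e
    refine (h.f4 e).imp (fun k => h.cjA n ▸ conj_mono n k) ?_
    rintro ⟨h1, δ, ⟨h2, h3⟩, ⟨k, h4⟩, h5⟩
    refine ⟨by rw [← conj_phi, relIndex_conj, h1], _, ⟨conj_mem_conj n h2, h.nC.conj_mem δ h3 n⟩,
      ⟨k, by rw [conj_pow, h4]; group⟩, ?_⟩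
    rwa [← conj_zpowers, ← conj_comm, ← conj_phi, conj_le_conj_iff]

theorem neA : ¬ A ≤ B := fun e => by
  have := h.q4; rw [relIndex_eq_one.2 e] at this; omega

theorem DN : D ≤ 𝐍(B) := le_norm_of_le_cent h.DC

theorem PC : P ≤ 𝐂(B) := h.hP.le.trans h.DC

theorem irrB (h1 : B ≤ W) (h2 : W ≤ A) (h3 : D ≤ 𝐍(W)) : W = B ∨ W = A := by
  by_cases e : W ≤ B
  · exact Or.inl (le_antisymm e h1)
  obtain ⟨w, hw, hw'⟩ := SetLike.not_le_iff_exists.1 e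
  refine Or.inr (le_antisymm h2 fun v hv => by_contra fun hv' => ?_)
  obtain ⟨d, hd, k⟩ := h.tr w (h2 hw) v hv hw' fun k => hv' (h1 k)
  exact hv' (W.inv_mem_iff.1 ((W.mul_mem_cancel_left (le_norm_iff.1 h3 d hd w hw)).1 (h1 k)))

theorem exists_ne : ∃ n : H, B ⊓ n ⋆ B = ⊥ := by
  by_contra! e
  exact (h.irr B h.hB (NormalIn.top_iff.1 ⟨le_top, fun n _ => h.ti n (e n)⟩)).elim h.B1
    fun k => h.neA k.ge

theorem cent_le (hb : b ∈ B) (b1 : b ≠ 1) : 𝐂[b] ≤ 𝐍(B) := fun g hg =>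
  h.ti g (ne_bot_of_mem (H := B ⊓ g ⋆ B) ⟨hb, mem_conj'.2 ⟨b, hb, by simp [mem_cent1.1 hg]⟩⟩ b1)

variable [Finite H]

theorem syl : IsSylowIn 2 P D :=
  isSylowIn_of_not_dvd_relIndex h.hP.le h.P2 h.Po.not_two_dvd_nat

theorem leP (h1 : X ≤ D) (h2 : IsPGroup 2 X) : X ≤ P :=
  sylow_le_of_norm Nat.prime_two h.syl h1 h2 (Or.inr (h1.trans h.hP.norm))

theorem NP : 𝐍(B) ≤ 𝐍(P) :=
  h.ND.trans ((sylow_hall Nat.prime_two h.syl).norm_le_norm h.hP.norm)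

theorem commP : ⁅A, P⁆ ≤ B := by
  rcases h.irrB (W := B ⊔ ⁅A, P⁆) le_sup_left (sup_le h.hB (comm_le_left (h.nrm P)))
    (le_normalizer_sup h.DN (le_normalizer_commutator (h.nrm D) h.hP.norm)) with e | e
  · exact le_sup_right.trans e.le
  refine absurd (le_of_le_sup_comm (M := A ⊔ P) ⟨h.hB.trans le_sup_left,
    sup_le (h.cA h.hB) (h.hP.le.trans h.DN)⟩ (NormalIn.refl _) (pgroup_nil Nat.prime_two
    (pgroup_sup (abelem_pgroup h.hA) h.P2 (Or.inr (h.nrm P)))) le_sup_left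
    (e.ge.trans (sup_le_sup_left (commutator_mono le_rfl le_sup_right) _))) h.neA

theorem pt_conj {d : H} (hd : d ∈ D) (ha : a ∈ A) (hb : b ∈ A) (e : d * a * d⁻¹ * b⁻¹ ∈ B) :
    d ⋆ (B ⊔ zpowers a) = B ⊔ zpowers b := by
  have k : ∀ {x y : H}, x * y⁻¹ ∈ B → B ⊔ zpowers x ≤ B ⊔ zpowers y := fun {x y} e =>
    sup_le le_sup_left (zpowers_le.2 (by
      simpa using mul_mem (mem_sup_left e) (mem_sup_right (S := B) (mem_zpowers y))))
  rw [conj_sup, conj_of_mem_norm (h.DN hd), conj_zpowers]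
  exact le_antisymm (k e) (k (by simpa [mul_assoc] using B.inv_mem e))

theorem k1 (hd : B ⊓ B' = ⊥) (hB' : B' ≤ A) (pf : IsPGroup 2 (zpowers f))
    (f1 : ⁅A, zpowers f⁆ ≤ B') (f2 : B' ≤ 𝐂[f]) (nB : f ∈ 𝐍(B)) (fA : f ∉ 𝐂(A)) :
    A ⊓ 𝐂[f] = B ⊔ B' := by
  have nf := zpowers_le.2 nB
  have cB : B ≤ 𝐂[f] := by
    rw [← cent_zpowers, ← comm_eq_bot_iff, eq_bot_iff, ← hd]
    exact le_inf (comm_le_left nf) ((commutator_mono h.hB le_rfl).trans f1)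
  have pF := pgroup_sup h.P2 pf (Or.inr (nf.trans h.NP))
  have sF : IsSylowIn 2 (P ⊔ zpowers f) (D ⊔ zpowers f) := by
    refine ⟨sup_le_sup_right h.hP.le _, pF, fun Q hQ h1 h2 => le_antisymm (fun q hq => ?_) h1⟩
    obtain ⟨d, hd, z, hz, rfl⟩ :=
      ((NormalIn.sup_left (nf.trans h.ND)).mem_sup le_sup_right).1 (h2 hq)
    exact mul_mem (mem_sup_left (h.leP inf_le_left (hQ.to_le inf_le_right)
      ⟨hd, (Q.mul_mem_cancel_right (h1 (mem_sup_right hz))).1 hq⟩)) (mem_sup_right hz)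
  have cF : ∀ {Z : Subgroup H}, Z ≤ A → B ≤ Z → ⁅A, zpowers f⁆ ≤ Z → ⁅A, P ⊔ zpowers f⁆ ≤ Z :=
    fun h1 h2 h3 => comm_sup_right_le (h.commP.trans h2) h3
      (comm_le_left_iff.1 ((commutator_mono h1 le_rfl).trans (h.commP.trans h2)))
      (comm_le_left_iff.1 ((commutator_mono h1 le_rfl).trans h3))
  have cf := comm_le_left (h.nrm (zpowers f))
  have nW : ∀ {u : H}, u ∈ A ⊓ 𝐂[f] → P ⊔ zpowers f ≤ 𝐍(B ⊔ zpowers u) := fun {u} hu =>
    sup_le (comm_le_left_iff.1 ((commutator_mono (sup_le h.hB (zpowers_le.2 hu.1)) le_rfl).trans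
      (h.commP.trans le_sup_left)))
      (le_normalizer_sup nf (le_norm_zpowers_of_cent (zpowers_le.2 (mem_cent1_comm.1 hu.2))))
  have hU : B ⊔ B' ≤ A ⊓ 𝐂[f] := sup_le (le_inf h.hB cB) (le_inf hB' f2)
  have n1 : ¬ ⁅A, zpowers f⁆ ≤ B := fun e => fA (zpowers_le.1 (comm_eq_bot_iff'.1
    (eq_bot_iff.2 (hd ▸ le_inf e f1))))
  obtain ⟨u, hu, hu'⟩ := SetLike.not_le_iff_exists.1 n1
  have key : A ⊓ 𝐂[f] ≤ B ⊔ ⁅A, zpowers f⁆ := fun v hv => by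
    by_cases hv' : v ∈ B
    · exact mem_sup_left hv'
    have uU := hU (mem_sup_right (f1 hu))
    obtain ⟨d, hd, e⟩ := h.tr u uU.1 v hv.1 hu' hv'
    obtain ⟨m, hm, m1, m2⟩ := witt (α := sj (B ⊔ zpowers u)) (β := sj (B ⊔ zpowers v))
      Nat.prime_two (sF.of_le (le_inf sF.le (by rw [st_sj]; exact nW uU)) inf_le_left)
      (by rw [st_sj]; exact nW hv) ⟨d, mem_sup_left hd, h.pt_conj hd uU.1 hv.1 e⟩
    have : m ⋆ (B ⊔ zpowers u) ≤ B ⊔ ⁅A, P ⊔ zpowers f⁆ := conj_le_of_mem_norm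
      (le_normalizer_sup (zpowers_le.2 (sup_le h.DN nf hm)) (le_normalizer_commutator (h.nrm _)
        (zpowers_le.2 m1)) (mem_zpowers m))
      (sup_le_sup_left (zpowers_le.2 (commutator_mono le_rfl le_sup_right hu)) _)
    exact sup_le le_sup_left (cF (sup_le h.hB cf) le_sup_left le_sup_right)
      (this ((show m ⋆ _ = B ⊔ zpowers v from m2).ge (mem_sup_right (mem_zpowers v))))
  exact le_antisymm (key.trans (sup_le_sup_left f1 _)) hU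

theorem sqC (hf : f ∈ P) : f * f ∈ 𝐂(A) := mem_cent.2 fun a ha => by
  have hc : ⁅a, f⁆ ∈ B := h.commP (commutator_mem_commutator ha hf)
  have e1 := mem_cent.1 (h.PC hf) _ hc
  calc a * (f * f) = ⁅a, f⁆ * f * (a * f) := by rw [commutatorElement_def]; group
    _ = f * (⁅a, f⁆ * (a * f)) := by rw [e1, mul_assoc]
    _ = f * (⁅a, f⁆ * ⁅a, f⁆) * f * a := by rw [commutatorElement_def]; group
    _ = _ := by rw [h.sq (h.hB hc)]; group

theorem k1' (h' : Dat A B' D' P') (hd : B ⊓ B' = ⊥) (hf : f ∈ P') (nB : f ∈ 𝐍(B)) (fA : f ∉ 𝐂(A)) :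
    A ⊓ 𝐂[f] = B ⊔ B' :=
  h.k1 hd h'.hB (h'.P2.to_le (zpowers_le.2 hf))
    ((commutator_mono le_rfl (zpowers_le.2 hf)).trans h'.commP) (le_cent1_iff.2 (h'.PC hf)) nB fA

theorem k2 (h' : Dat A B' D' P') (hd : B ⊓ B' = ⊥) (hf : f ∈ P') (nf : f ∈ 𝐍(B)) (fA : f ∉ 𝐂(A))
    (hg : g ∈ P') (ng : g ∈ 𝐍(B)) (gA : g ∉ 𝐂(A)) : f * g ∈ 𝐂(A) := by
  by_contra fg
  set K := centMod A B
  have nK : 𝐍(B) ≤ 𝐍(K) := le_norm_centMod (h.nrm _) le_rfl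
  have cK : 𝐂(A) ≤ K := le_centMod_iff.2 ⟨h.nrm _, le_norm_of_le_cent (cent_anti h.hB),
    (comm_eq_bot_iff'.2 le_rfl).trans_le bot_le⟩
  have z1 : ∀ {z : H} {a : H}, z ∈ P' → a ∈ A → ⁅a, z⁆ ∈ B → a ∈ 𝐂[z] := fun hz ha e =>
    mem_cent1.2 (commutatorElement_eq_one_iff_mul_comm.1 (mem_bot.1
      (hd ▸ ⟨e, h'.commP (commutator_mem_commutator ha hz)⟩)))
  have Kc : ∀ {z : H} (hz : z ∈ P') (n : z ∈ 𝐍(B)), coset K ⟨z, nK n⟩ = 1 → z ∈ 𝐂(A) :=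
    fun hz n e => le_cent1_iff.1 fun a ha => z1 hz ha ((mem_centMod.1 (coset_eq_one.1 e)).2 a ha)
  have sq : ∀ {z : H} (hz : z ∈ P') (n : z ∈ 𝐍(B)), coset K ⟨z, nK n⟩ * coset K ⟨z, nK n⟩ = 1 :=
    fun hz n => by rw [← map_mul]; exact coset_eq_one.2 (cK (h'.sqC hz))
  have sxy := sq (mul_mem hf hg) (mul_mem nf ng)
  have nxy := mt (Kc (mul_mem hf hg) (mul_mem nf ng)) fg
  rw [show coset K ⟨f * g, nK (mul_mem nf ng)⟩ = coset K ⟨f, nK nf⟩ * coset K ⟨g, nK ng⟩ from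
    map_mul (coset K) ⟨f, nK nf⟩ ⟨g, nK ng⟩] at sxy nxy
  have hW : B ⊔ B' ≤ A := sup_le h.hB h'.hB
  have key : D /' K ≤ (𝐍(B ⊔ B') ⊓ D) /' K := by
    refine le_of_centralizers_le_of_rank_two Nat.prime_two (x := coset K ⟨f, nK nf⟩)
      (y := coset K ⟨g, nK ng⟩) ?_ (by rw [pow_two, sq hf nf]) (by rw [pow_two, sq hg ng])
      (mt (Kc hg ng) gA) (fun e => ?_)
      (mim_le_norm _ h.ND (mem_mim_of_mem _ _ nf)) (mim_le_norm _ h.ND (mem_mim_of_mem _ _ ng))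
      ?_ fun b hb b1 => ?_
    · have := eq_inv_of_mul_eq_one_left sxy
      rwa [mul_inv_rev, inv_eq_of_mul_eq_one_right (sq hf nf),
        inv_eq_of_mul_eq_one_right (sq hg ng)] at this
    · rcases Be.zpowers_cases (sq hg ng) e with e | e
      · exact fA (Kc hf nf e)
      · exact nxy (e ▸ sq hg ng)
    · rw [card_quo (h.DN.trans nK)]
      exact (h.Po.of_dvd_nat (relIndex_dvd_of_le_left D (le_centMod_iff.2
        ⟨h.nrm _, h.hP.le.trans h.DN, h.commP⟩))).not_two_dvd_nat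
    obtain ⟨z, ⟨z2, z3⟩, rfl⟩ : b ∈ (P' ⊓ 𝐍(B)) /' K := (closure_le _).2 (by
      rintro _ (rfl | rfl)
      exacts [mem_mim_of_mem _ _ ⟨hf, nf⟩, mem_mim_of_mem _ _ ⟨hg, ng⟩]) hb
    rintro _ ⟨⟨c, hc, rfl⟩, e⟩
    refine mem_mim_of_mem _ _ ⟨H1.mem_normalizer_of_conj_mem fun a ha => ?_, hc⟩
    rw [← h.k1' h' hd z2 z3 fun k => b1 (coset_eq_one.2 (cK k))] at ha ⊢
    have hκ : ((z * c * z⁻¹ * c⁻¹ : 𝐍(K)) : H) ∈ K := coset_eq_one.1 (by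
      simp only [map_mul, map_inv]; rw [← mem_cent1.1 e]; group)
    refine ⟨h.cjm _ ha.1, z1 z2 (h.cjm _ ha.1) ?_⟩
    exact comm_aux (c : H) (mem_cent1.1 ha.2) ▸ (mem_centMod.1 hκ).2 _ (h.cjm c ha.1)
  rw [quo_le_quo_iff' (h.DN.trans nK) (inf_le_right.trans (h.DN.trans nK))] at key
  rcases h.irrB le_sup_left hW (key.trans (sup_le inf_le_left (comm_le_left_iff.1
    ((commutator_mono hW le_rfl).trans ((comm_centMod_le A B).trans le_sup_left))))) with e | e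
  · exact h'.B1 (by rw [← hd, inf_eq_right.2 (le_sup_right.trans e.le)])
  · exact fA (le_cent1_iff.1 (e.ge.trans ((h.k1' h' hd hf nf fA).ge.trans inf_le_right)))

end Dat

end Cfsg.Agent.Go.Sm
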