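import Cfsg.Agent.Go.Sm1
import Cfsg.Agent.FT.B9

/-! Part II of notes/goldschmidt.md, case `|B| ≤ q`: `P` centralises `A`. -/

set_option autoImplicit false
set_option maxHeartbeats 400000

namespace Cfsg.Agent.Go.Sm

open Subgroup MulAction Cfsg.Agent.H1 Cfsg.Agent.L Cfsg.Agent.FT Cfsg.Agent.FT.B1 Cfsg.Agent.Be.P1
open scoped Pointwise commutatorElement

variable {H : Type*} [Group H] [Finite H] {A B D P B' D' P' U V W X Z : Subgroup H}
  {a b f g n δ : H} {p : ℕ}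

theorem dcount_eq {α β : Type*} [Finite α] [Finite β] (s : Set α) (t : Set β) (r : α → β → Prop)
    {m n : ℕ} (hm : ∀ a ∈ s, {b | b ∈ t ∧ r a b}.ncard = m)
    (hn : ∀ b ∈ t, {a | a ∈ s ∧ r a b}.ncard = n) : s.ncard * m = t.ncard * n := by
  classical
  have := Finset.card_mul_eq_card_mul r (s := (Set.toFinite s).toFinset)
    (t := (Set.toFinite t).toFinset) (m := m) (n := n) (fun a ha => by
      refine Eq.trans ?_ (hm a (by simpa using ha))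
      rw [← Set.ncard_coe_finset]; congr 1; ext b; simp [Finset.mem_bipartiteAbove])
    (fun b hb => by
      refine Eq.trans ?_ (hn b (by simpa using hb))
      rw [← Set.ncard_coe_finset]; congr 1; ext a; simp [Finset.mem_bipartiteBelow])
  rwa [← Set.ncard_eq_toFinset_card, ← Set.ncard_eq_toFinset_card] at this

theorem ncard_diff (h : U ≤ V) : ((V : Set H) \ U).ncard + #|U| = #|V| :=
  Set.ncard_diff_add_ncard_of_subset h (Set.toFinite _)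

theorem card_modEq (hp : p.Prime) (hU : IsPGroup p U) (hn : U ≤ 𝐍(X)) :
    #|X| ≡ #|X ⊓ 𝐂(U)| [MOD p] := by
  have := card_mod (Ω := Cj H) (O := (X : Set H)) hp hU (Set.toFinite (X : Set H))
    fun u hu x hx => le_norm_iff.1 hn u hu x hx
  refine this.trans (Eq.trans ?_ rfl)
  congr 1
  refine congrArg Set.ncard (?_ : _ = ((X ⊓ 𝐂(U) : Subgroup H) : Set H))
  exact Set.ext fun x => and_congr_right fun _ => (st_cj (H := H) x).symm ▸ le_cent1_iff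

theorem dvd16 {c : ℕ} (h : c ∣ 16) : c = 1 ∨ c = 2 ∨ c = 4 ∨ c = 8 ∨ c = 16 := by
  have := Nat.le_of_dvd (by norm_num) h
  interval_cases c <;> simp_all

theorem fpf16 (hV : #|V| = 16) (hZ : IsPGroup 5 Z) (n : Z ≤ 𝐍(V)) (h : ¬ V ≤ 𝐂(Z)) :
    V ⊓ 𝐂(Z) = ⊥ := by
  have h1 := card_modEq Nat.prime_five hZ n
  have h2 : #|V ⊓ 𝐂(Z)| ≠ 16 := fun e =>
    h ((eq_of_le_of_card_le inf_le_left (by rw [e, hV])).ge.trans inf_le_right)
  have := dvd16 (hV ▸ card_dvd_of_le' (inf_le_left (b := 𝐂(Z))))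
  rw [hV, Nat.ModEq] at h1
  exact card_eq_one.1 (by omega)

theorem irr5 (h1 : Z ≤ 𝐍(P)) (hZ : IsPGroup 5 Z) (h16 : (phi P).relIndex P = 16)
    (hn : ¬ ⁅P, Z⁆ ≤ phi P) (w1 : phi P ≤ W) (w2 : W ≤ P) (w3 : Z ≤ 𝐍(W)) :
    W = phi P ∨ W = P := by
  have n := (phi_normal P).norm
  have c : #|P /' phi P| = 16 := by rw [card_quo n, h16]
  have pZ := pgroup_mim hZ (coset (phi P))
  have e := fpf16 c pZ (mim_le_norm _ h1)
    (mt (quo_le_cent_iff n (h1.trans (norm_le_norm_phi P))).1 hn)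
  have hm := mim_mono (coset (phi P)) w2
  have k := card_modEq Nat.prime_five pZ (mim_le_norm (coset (phi P)) w3)
  rw [eq_bot_iff.2 ((inf_le_inf_right _ hm).trans e.le), card_bot, Nat.ModEq] at k
  have := dvd16 (c ▸ card_dvd_of_le' hm)
  by_cases e1 : #|W /' phi P| = 1
  · exact Or.inl (le_antisymm ((quo_eq_bot_iff (w2.trans n)).1 (card_eq_one.1 e1)) w1)
  · exact Or.inr (quo_inj ⟨w1, w2.trans n⟩ (phi_normal P) (eq_of_le_of_card_le hm (by omega)))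

omit [Finite H] in
theorem pgroup_of_pow {k : ℕ} (h : δ ^ p ^ k = 1) : IsPGroup p (zpowers δ) := by
  rintro ⟨_, i, rfl⟩
  refine ⟨k, Subtype.ext (?_ : (δ ^ i) ^ p ^ k = 1)⟩
  rw [← zpow_natCast, ← zpow_mul, mul_comm, zpow_mul, zpow_natCast, h, one_zpow]

theorem num_aux {s t c k m q i j l : ℕ} (hk : 0 < k) (hm : m = 2 ^ i) (hq : q = 2 ^ j) (q4 : 4 ≤ q)
    (m1 : m ≠ 1) (h1 : s + m = m * q) (h2 : t + k = k * 2 ^ l) (h3 : c + m = m * m)
    (h : s * k = t * c) : m = 2 ∨ q = m := by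
  have m0 : 0 < m := hm ▸ Nat.two_pow_pos i
  have key : q + m + 2 ^ l = 2 ^ l * m + 2 := by
    generalize 2 ^ l = e at *
    zify at *
    apply mul_left_cancel₀ (a := (m * k : ℤ)) (by positivity)
    linear_combination (-k) * h1 + (m * m - m) * h2 + t * h3 + h
  obtain ⟨j, rfl⟩ : ∃ j', j = j' + 2 := ⟨j - 2, by
    rcases j with _ | _ | j <;> simp_all⟩
  rcases i with _ | _ | i
  · simp_all
  · simp_all
  rcases l with _ | _ | l
  · omega
  · omega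
  · exfalso
    rw [hm, hq] at key
    have : 4 * (2 ^ j + 2 ^ i + 2 ^ l) = 4 * (2 ^ (l + 2) * 2 ^ i) + 2 := by
      linear_combination key
    omega

namespace Dat
variable (h : Dat A B D P)
include h

theorem toPt (hb : b ∈ A) (hb' : b ∉ B) (ha : a ∈ A) (ha' : a ∉ B) :
    ∃ d ∈ D, ∀ x ∈ P, x ∈ 𝐂[a] ↔ d * x * d⁻¹ ∈ 𝐂[b] := by
  obtain ⟨d, hd, e⟩ := h.tr a ha b hb ha' hb'
  refine ⟨d, hd, fun x hx => ?_⟩
  have k := cent_le_cent1 e (h.PC (h.hP.conj_mem hd hx))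
  rw [← conj_mem_conj_iff (g := d), conj_cent1, mem_cent1_comm, mem_cent1_comm (x := b)]
  rw [mem_cent1_comm] at k
  simpa using ((𝐂[d * x * d⁻¹]).mul_mem_cancel_left (y := b) k)

theorem e1 : P ≤ 𝐂(A) := by
  by_contra hn
  haveI := h.nC
  obtain ⟨x0, p0, c0⟩ := SetLike.not_le_iff_exists.1 hn
  obtain ⟨n, hd⟩ := h.exists_ne
  have h' := h.conj n
  obtain ⟨b, hb, b1⟩ := exists_mem_ne_one h'.B1
  have bA := h'.hB hb
  have bB : b ∉ B := fun e => b1 (mem_bot.1 (hd ▸ ⟨e, hb⟩))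
  rw [inf_comm] at hd
  have cc : ∀ {d x : H}, d * x * d⁻¹ ∈ 𝐂(A) ↔ x ∈ 𝐂(A) := fun {d x} => by
    rw [← conj_mem_conj_iff (g := d) (x := x), conj_normal]
  have K1 : ∀ x ∈ P, x ∉ 𝐂(A) → #|A ⊓ 𝐂[x]| = #|B| * #|B| := fun x hx hx' => by
    obtain ⟨a, ha, ha', e⟩ := h.fx x hx
    obtain ⟨d, hd', k⟩ := h.toPt bA bB ha ha'
    rw [← card_conj d, conj_inf, conj_cent1, h.cjA, h'.k1' h hd (h.hP.conj_mem hd' hx)
      (h'.cent_le hb b1 ((k x hx).1 (mem_cent1.2 e))) (mt cc.1 hx'),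
      card_sup_of_disjoint (h'.hB.trans (h.cA h.hB)) (disjoint_iff.2 hd), card_conj]
  have K2 : ∀ a ∈ (A : Set H) \ B, {x | x ∈ (P : Set H) \ (𝐂(A) ⊓ P : Subgroup H) ∧ x ∈ 𝐂[a]}.ncard =
      #|𝐂(A) ⊓ P| := fun a ha => by
    obtain ⟨a0, ha0, ha0', e0⟩ := h.fx x0 p0
    obtain ⟨d, hd', k⟩ := h.toPt ha.1 ha.2 ha0 ha0'
    obtain ⟨c, hc, k'⟩ := h.toPt bA bB ha.1 ha.2
    have y1 := h.hP.conj_mem hd' p0
    have y2 := (k x0 p0).1 (mem_cent1.2 e0)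
    have y3 := mt (cc (d := d)).1 c0
    generalize d * x0 * d⁻¹ = y at y1 y2 y3
    refine Eq.trans ?_ (Set.ncard_image_of_injective (𝐂(A) ⊓ P : Subgroup H) (mul_right_injective y))
    congr 1
    ext x
    refine ⟨fun ⟨⟨h1, h2⟩, h3⟩ => ⟨y⁻¹ * x, ⟨?_, P.mul_mem (P.inv_mem y1) h1⟩, by simp⟩, ?_⟩
    · have := h'.k2 h hd (h.hP.conj_mem hc y1) (h'.cent_le hb b1 ((k' y y1).1 y2)) (mt cc.1 y3)
        (h.hP.conj_mem hc h1) (h'.cent_le hb b1 ((k' x h1).1 h3)) (mt cc.1 fun e => h2 ⟨e, h1⟩)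
      rw [conj_mul, cc] at this
      simpa [mul_assoc] using mul_mem (inv_mem (h.sqC y1)) this
    · rintro ⟨z, hz, rfl⟩
      exact ⟨⟨mul_mem y1 hz.2, fun e => y3 (((𝐂(A)).mul_mem_cancel_right hz.1).1 e.1)⟩,
        mul_mem y2 (cent_le_cent1 ha.1 hz.1)⟩
  have cB : ∀ x ∈ P, B ≤ A ⊓ 𝐂[x] := fun x hx => le_inf h.hB (le_cent1_iff.2 (h.PC hx))
  have := dcount_eq _ _ (fun a x => x ∈ 𝐂[a]) K2 (n := #|B| * #|B| - #|B|) fun x hx => by
    rw [← K1 x hx.1 fun e => hx.2 ⟨e, hx.1⟩, ← ncard_diff (cB x hx.1), Nat.add_sub_cancel]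
    congr 1
    ext a
    exact ⟨fun e => ⟨⟨e.1.1, mem_cent1_comm.1 e.2⟩, e.1.2⟩,
      fun e => ⟨⟨e.1.1, e.2⟩, mem_cent1_comm.1 e.1.2⟩⟩
  have pA := abelem_pgroup h.hA
  obtain ⟨i, hi⟩ := pgroup_card Nat.prime_two (pA.to_le h.hB)
  obtain ⟨j, hj⟩ := pgroup_relIndex Nat.prime_two pA B
  obtain ⟨l, hl⟩ := pgroup_relIndex Nat.prime_two h.P2 𝐂(A)
  have cA := card_mul_relIndex_of_le h.hB
  have k0 := K1 x0 p0 c0
  rcases num_aux Nat.card_pos hi hj h.q4 (mt card_eq_one.1 h.B1) ((ncard_diff h.hB).trans cA.symm)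
    ((ncard_diff inf_le_right).trans (by rw [← hl, card_inf_mul_relIndex]))
    (Nat.sub_add_cancel (Nat.le_mul_self _)) this with e | e
  · have h1 := B9.relIndex_cent1_le (x := x0) fun r hr => h.commP (commutator_mem_commutator hr p0)
    have h2 := card_inf_mul_relIndex 𝐂[x0] A
    rw [inf_comm, k0] at h2
    have q4 := h.q4
    rcases h.f4 (by rw [e] at cA h1 h2; omega) with k | ⟨h16, δ, ⟨d1, d2⟩, ⟨k, d3⟩, d4⟩
    · exact hn (k.trans h.AC)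
    have nP := zpowers_le.2 (h.hP.norm d1)
    rcases irr5 (W := P ⊓ 𝐂(A) ⊔ phi P) nP (pgroup_of_pow d3) h16 d4 le_sup_right
      (sup_le inf_le_left (phi_le P)) (le_normalizer_sup
        (le_normalizer_inf nP (le_norm_of_normal _ _)) (nP.trans (norm_le_norm_phi P))) with k | k
    · exact d4 ((le_inf (comm_le_left nP) ((commutator_mono le_top (zpowers_le.2 d2)).trans
        (commutator_le_right _ _))).trans (le_sup_left.trans k.le))
    · exact hn ((eq_of_le_sup_phi inf_le_left k.ge).ge.trans inf_le_right)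
  · exact c0 (le_cent1_iff.1 ((eq_of_le_of_card_le (inf_le_left (b := 𝐂[x0]))
      (by rw [k0, ← cA, e])).ge.trans inf_le_right))

end Dat

end Cfsg.Agent.Go.Sm
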