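import Cfsg.Agent.Go.Sm2

/-! Part II of notes/goldschmidt.md, case `|B| ≤ q`: the geometry of the conjugates of `B`. -/

set_option autoImplicit false
set_option maxHeartbeats 400000

namespace Cfsg.Agent.Go.Sm

open Subgroup MulAction Cfsg.Agent.H1 Cfsg.Agent.L Cfsg.Agent.FT Cfsg.Agent.FT.B1 Cfsg.Agent.Be.P1
open scoped Pointwise commutatorElement

variable {H : Type*} [Group H] [Finite H] {A B D P L S U V W X Z : Subgroup H}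
  {a b d f g m n u v x y z δ : H} {p : ℕ}

omit [Finite H] in
theorem mem_of_odd_index (h : Odd L.index) (hg : g ∈ 𝐍(L)) (h2 : g * g ∈ L) : g ∈ L := by
  obtain ⟨k, hk⟩ := h.of_dvd_nat (relIndex_dvd_index_of_le (le_normalizer (H := L)))
  have : g ^ L.relIndex 𝐍(L) ∈ L := (L.subgroupOf 𝐍(L)).pow_index_mem ⟨g, hg⟩
  rwa [hk, pow_succ, pow_mul, pow_two, L.mul_mem_cancel_left (L.pow_mem h2 k)] at this

namespace Dat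
variable (h : Dat A B D P)
include h

theorem RA : ⁅A, D⁆ ≤ A := comm_le_left (h.nrm D)

theorem NR : 𝐍(B) ≤ 𝐍(⁅A, D⁆) := le_normalizer_commutator (h.nrm _) h.ND

theorem cjR (n : H) : ⁅A, n ⋆ D⁆ = n ⋆ ⁅A, D⁆ := by rw [conj_comm, h.cjA]

theorem card_sup (hW : W ≤ A) (ha : a ∈ A) : #|W ⊔ zpowers a| ≤ #|W| * 2 :=
  (Nat.le_of_dvd (Nat.mul_pos Nat.card_pos Nat.card_pos)
    (card_sup_dvd (hW.trans (h.cA (zpowers_le.2 ha))))).trans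
    (Nat.mul_le_mul_left _ (Nat.le_of_dvd two_pos (Be.card_zpowers_dvd (h.sq ha))))

theorem notC : ¬ D ≤ 𝐂(A) := fun e => by
  obtain ⟨u, hu, hu'⟩ := SetLike.not_le_iff_exists.1 h.neA
  have k := sup_le h.hB (zpowers_le.2 hu)
  rcases h.irrB le_sup_left k (le_norm_of_le_cent (le_cent_of_le e k)) with e | e
  · exact hu' (e.le (mem_sup_right (mem_zpowers u)))
  have := h.card_sup h.hB hu
  rw [e, ← card_mul_relIndex_of_le h.hB] at this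
  exact absurd (Nat.le_of_mul_le_mul_left this Nat.card_pos) (by have := h.q4; omega)

theorem dp : DProd ⁅A, D⁆ B A := by
  obtain ⟨E, sd, hE⟩ := (sylow_hall Nat.prime_two h.syl).exists_sdprod h.hP.norm
  have co : (#|E|).Coprime #|A| :=
    ((piGrp_of_isPGroup (π := {2}) Nat.prime_two (abelem_pgroup h.hA) rfl).coprime' hE.pi).symm
  have e : ⁅A, D⁆ = ⁅A, E⁆ := by
    refine le_antisymm ?_ (commutator_mono le_rfl hE.le)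
    rw [← sd.sup]
    exact comm_sup_right_le ((comm_eq_bot_iff'.2 h.e1).trans_le bot_le) le_rfl
      (le_norm_of_le_cent (le_cent_of_le h.e1 (comm_le_left (h.nrm E)))) (right_le_norm_comm _ _)
  have c : D ≤ 𝐂(A ⊓ 𝐂(E)) :=
    sd.sup ▸ sup_le (le_cent_of_le h.e1 inf_le_left) (le_cent_symm inf_le_right)
  have eB := (h.irrB (le_inf h.hB (le_cent_symm (hE.le.trans h.DC))) inf_le_left
    (le_norm_of_le_cent c)).resolve_right fun k => h.notC (k ▸ c)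
  haveI := h.hA.1
  refine ⟨h.hB.trans (le_cent_of_le h.AC h.RA), ?_, ?_⟩
  · rw [e, ← eB, inf_comm]; exact inf_centralizer_inf_commutator_eq_bot (h.nrm E) co
  · rw [e, ← eB]; exact commutator_sup_centralizer (h.nrm E) co (Or.inr (sol_of_comm h.hA.1))

theorem one_of (h1 : x ∈ ⁅A, D⁆) (h2 : x ∈ B) : x = 1 := h.dp.sd.eq_one h1 h2

theorem trR (hu : u ∈ ⁅A, D⁆) (hv : v ∈ ⁅A, D⁆) (u1 : u ≠ 1) (v1 : v ≠ 1) :
    ∃ d ∈ D, d * u * d⁻¹ = v := by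
  obtain ⟨d, hd, e⟩ := h.tr u (h.RA hu) v (h.RA hv) (mt (h.one_of hu) u1) (mt (h.one_of hv) v1)
  exact ⟨d, hd, mul_inv_eq_one.1 (h.one_of
    (mul_mem (conj_mem_of_mem_normalizer (h.NR (h.DN hd)) hu) (inv_mem hv)) e)⟩

theorem ti' (h1 : x ∈ n ⋆ B) (h2 : x ∈ m ⋆ B) (x1 : x ≠ 1) : m ⋆ B = n ⋆ B := by
  have e : (m * n⁻¹) ⋆ n ⋆ B = m ⋆ B := by rw [mul_conj, inv_conj_conj]
  rw [← e]
  exact conj_of_mem_norm ((h.conj n).ti _ (ne_bot_of_mem (H := _ ⊓ _) ⟨h1, e ▸ h2⟩ x1))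

theorem cB (hd : d ∈ D) (hb : b ∈ B) : d * b * d⁻¹ = b := by
  rw [← mem_cent.1 (h.DC hd) b hb, mul_inv_cancel_right]

theorem f1 (h1 : n ⋆ B ⊓ ⁅A, D⁆ ≠ ⊥) : n ⋆ B ≤ ⁅A, D⁆ := fun w hw => by
  have h' := h.conj n
  obtain ⟨v, hv, β, hβ, rfl⟩ := h.dp.mem_iff.1 (h'.hB hw)
  by_contra hn
  have β1 : β ≠ 1 := fun e => hn (by simpa [e] using hv)
  obtain ⟨x, ⟨x2, x3⟩, x1⟩ := exists_mem_ne_one h1
  have ne : ∀ {v}, v * β ∈ n ⋆ B → v ≠ 1 := fun k e => x1 (h.one_of x3 (by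
    rw [e, one_mul] at k
    rwa [h.ti' (n := 1) (by simpa using hβ) k β1, one_conj] at x2))
  have hP : P ≤ D ⊓ 𝐍(n ⋆ B) := le_inf h.hP.le (le_norm_of_le_cent (le_cent_of_le h.e1 h'.hB))
  have o : orb (D ⊓ 𝐍(n ⋆ B)) (cj (v * β)) =
      (fun y => y * (v * β)) '' (n ⋆ B ⊓ ⁅A, D⁆ : Subgroup H) := by
    ext y
    constructor
    · rintro ⟨d, hd, rfl⟩
      refine ⟨d * (v * β) * d⁻¹ * (v * β)⁻¹, ⟨mul_mem (conj_mem_of_mem_normalizer hd.2 hw)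
        ((n ⋆ B).inv_mem hw), ?_⟩, inv_mul_cancel_right _ _⟩
      rw [← conj_mul, h.cB hd.1 hβ, mul_inv_rev, mul_assoc, mul_inv_cancel_left]
      exact mul_mem (conj_mem_of_mem_normalizer (h.NR (h.DN hd.1)) hv) ((⁅A, D⁆).inv_mem hv)
    · rintro ⟨y, hy, rfl⟩
      have k := mul_mem hy.1 hw
      obtain ⟨d, hd, e⟩ := h.trR hv (mul_mem hy.2 hv) (ne hw) (ne (by rwa [mul_assoc]))
      have e' : d * (v * β) * d⁻¹ = y * (v * β) := by rw [← conj_mul, h.cB hd hβ, e, mul_assoc]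
      refine ⟨d, ⟨hd, h'.ti d (ne_bot_of_mem (H := _ ⊓ _) ⟨k, e' ▸ conj_mem_conj d hw⟩ fun k' =>
        hn ?_)⟩, e'⟩
      rw [eq_inv_of_mul_eq_one_right k']
      exact inv_mem hy.2
  have c := ncard_orb (D ⊓ 𝐍(n ⋆ B)) (cj (v * β))
  rw [o, st_cj] at c
  have c2 := (Set.ncard_image_of_injective _ (mul_left_injective (v * β))).symm.trans c
  refine (h.Po.of_dvd_nat ((relIndex_dvd_of_le_left _ (h.e1.trans (cent_le_cent1 (h'.hB hw)))).trans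
    (Dvd.intro _ (relIndex_mul_relIndex _ _ _ hP inf_le_left)))).not_two_dvd_nat (c2 ▸ ?_)
  exact pgroup_dvd_card Nat.prime_two ((abelem_pgroup h.hA).to_le (inf_le_right.trans h.RA)) h1

theorem cover (h1 : n ⋆ B ⊓ ⁅A, D⁆ = ⊥) (ha : a ∈ A) : ∃ v ∈ ⁅A, D⁆, ∃ w ∈ n ⋆ B, v * w = a :=
  (SDProd.of_card h.dp.normal_left (h.conj n).hB (by rwa [inf_comm])
    (by rw [card_conj, h.dp.card])).mem_iff.1 ha

theorem graph (h1 : n ⋆ B ⊓ ⁅A, D⁆ = ⊥) (h2 : B ⊓ n ⋆ B = ⊥) (ha : a ∈ A) (h3 : a ∉ ⁅A, D⁆) :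
    ∃ m : H, a ∈ m ⋆ B := by
  obtain ⟨v, hv, β, hβ, rfl⟩ := h.dp.mem_iff.1 ha
  by_cases v1 : v = 1
  · exact ⟨1, by simpa [v1] using hβ⟩
  obtain ⟨u, hu, w, hw, rfl⟩ := h.cover h1 (h.hB hβ)
  obtain ⟨d, hd, e⟩ := h.trR (inv_mem hu) hv (fun e => h3 (by
    rw [inv_eq_one.1 e, one_mul] at hβ ⊢
    rwa [mem_bot.1 (h2 ▸ ⟨hβ, hw⟩ : w ∈ (⊥ : Subgroup H)), mul_one])) v1
  refine ⟨d * n, ?_⟩
  rw [← e, ← h.cB hd hβ, conj_mul, inv_mul_cancel_left, mul_conj]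
  exact conj_mem_conj d hw

theorem R1 : ⁅A, D⁆ ≠ ⊥ := mt comm_eq_bot_iff'.1 h.notC

theorem f2 : ∃ n : H, n ⋆ B ≤ ⁅A, D⁆ := by
  by_contra! e
  have e' : ∀ n : H, n ⋆ B ⊓ ⁅A, D⁆ = ⊥ := fun n => by_contra fun k => e n (h.f1 k)
  obtain ⟨n, hn⟩ := h.exists_ne
  refine (h.irr _ h.RA ⟨fun x hx g => by_contra fun k => ?_⟩).elim h.R1 fun k =>
    h.B1 (by rw [← h.dp.disj, k, inf_eq_right.2 h.hB])
  obtain ⟨m, hm⟩ := h.graph (e' n) hn (h.cjm g (h.RA hx)) k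
  have : x ∈ (g⁻¹ * m) ⋆ B := by rw [mul_conj, mem_conj]; simpa using hm
  exact k (by simp [mem_bot.1 (e' _ ▸ ⟨this, hx⟩ : x ∈ (⊥ : Subgroup H)), one_mem])

theorem swapR (h1 : n ⋆ B ≤ ⁅A, D⁆) (hx : x ∈ ⁅A, D⁆) (x1 : x ≠ 1) : ∃ d ∈ D, x ∈ (d * n) ⋆ B := by
  obtain ⟨y, hy, y1⟩ := exists_mem_ne_one (h.conj n).B1
  obtain ⟨d, hd, rfl⟩ := h.trR (h1 hy) hx y1 x1
  exact ⟨d, hd, mul_conj d n B ▸ conj_mem_conj d hy⟩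

theorem f5 (n2 : ∀ M : Subgroup H, M.index ≠ 2) (ha : a ∈ A) (a1 : a ≠ 1) : ∃ m : H, a ∈ m ⋆ B := by
  obtain ⟨n, hn⟩ := h.f2
  by_cases h3 : a ∈ ⁅A, D⁆
  · exact (h.swapR hn h3 a1).elim fun d e => ⟨_, e.2⟩
  by_contra e
  have k : ∀ m, m ∉ 𝐍(B) → m ⋆ B ≤ ⁅A, D⁆ := fun m hm =>
    h.f1 fun k => e (h.graph k (by_contra fun k' => hm (h.ti m k')) ha h3)
  obtain ⟨g, hg⟩ := h.exists_ne
  have g1 : g ∉ 𝐍(B) := fun k => h.B1 (by rwa [conj_of_mem_norm k, inf_idem] at hg)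
  refine n2 𝐍(B) (index_eq_two_iff.2 ⟨g, fun c => ?_⟩)
  by_cases hc : c ∈ 𝐍(B)
  · exact Or.inr ⟨hc, fun k => g1 (((𝐍(B)).mul_mem_cancel_left hc).1 k)⟩
  refine Or.inl ⟨by_contra fun k' => ?_, hc⟩
  obtain ⟨β, hβ, β1⟩ := exists_mem_ne_one h.B1
  obtain ⟨γ, hγ, γ1⟩ := exists_mem_ne_one (h.conj c⁻¹).B1
  have γB : γ ∉ B := fun k => hc ((𝐍(B)).inv_mem_iff.1 (h.ti _ (ne_bot_of_mem (H := _ ⊓ _) ⟨k, hγ⟩ γ1)))
  have s1 : g⁻¹ * β * g ∈ ⁅A, D⁆ := k g⁻¹ (mt (𝐍(B)).inv_mem_iff.1 g1) (by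
    simpa using conj_mem_conj g⁻¹ hβ)
  have s2 : g⁻¹ * γ * g ∈ ⁅A, D⁆ := k (c * g)⁻¹ (mt (𝐍(B)).inv_mem_iff.1 k') (by
    rw [mul_inv_rev, mul_conj]; simpa using conj_mem_conj g⁻¹ hγ)
  obtain ⟨d, -, s3⟩ := h.swapR hn (mul_mem s1 s2) fun e => γB (by
    have : β * γ = 1 := by
      calc _ = g * (g⁻¹ * β * g * (g⁻¹ * γ * g)) * g⁻¹ := by group
        _ = 1 := by rw [e]; group
    exact eq_inv_of_mul_eq_one_right this ▸ inv_mem hβ)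
  have s4 : β * γ ∈ (g * (d * n)) ⋆ B := by
    rw [mul_conj, mem_conj]; convert s3 using 1; group
  by_cases s5 : g * (d * n) ∈ 𝐍(B)
  · rw [conj_of_mem_norm s5] at s4
    exact γB ((B.mul_mem_cancel_left hβ).1 s4)
  · exact β1 (h.one_of (((⁅A, D⁆).mul_mem_cancel_right
      (k _ (mt (𝐍(B)).inv_mem_iff.1 hc) hγ)).1 (k _ s5 s4)) hβ)

theorem swap2 (h1 : n ⋆ B ≤ ⁅A, D⁆) (h2 : m ⋆ B ≤ ⁅A, D⁆) : ∃ d ∈ D, d ⋆ n ⋆ B = m ⋆ B := by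
  obtain ⟨y, hy, y1⟩ := exists_mem_ne_one (h.conj m).B1
  obtain ⟨d, hd, e⟩ := h.swapR h1 (h2 hy) y1
  exact ⟨d, hd, mul_conj d n B ▸ h.ti' hy e y1⟩

variable (n2 : ∀ M : Subgroup H, M.index ≠ 2)
include n2

theorem fixes (hS : IsPGroup 2 S) (hW : W ≤ A) (h1 : W ≠ ⊥) (hn : S ≤ 𝐍(W)) :
    ∃ m : H, m ⋆ B ⊓ W ≠ ⊥ ∧ S ≤ 𝐍(m ⋆ B) := by
  obtain ⟨a, ha, a1⟩ := exists_mem_ne_one
    (inf_cent_ne_bot_of_pgroup Nat.prime_two ((abelem_pgroup h.hA).to_le hW) hS hn h1)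
  obtain ⟨m, hm⟩ := h.f5 n2 (hW ha.1) a1
  exact ⟨m, ne_bot_of_mem (H := _ ⊓ _) ⟨hm, ha.1⟩ a1,
    (le_cent1_iff.2 ha.2).trans ((h.conj m).cent_le hm a1)⟩

theorem nsp (h1 : n ⋆ B ≤ ⁅A, D⁆) : ¬ n⁻¹ ⋆ B ≤ ⁅A, D⁆ := fun h2 => by
  obtain ⟨S, hS⟩ := exists_isSylowIn 2 (⊤ : Subgroup H)
  obtain ⟨m, -, hm⟩ := h.fixes n2 hS.2 le_rfl (ne_bot_of_le h.B1 h.hB) (h.nrm S)
  rw [← conj_norm, le_conj_iff] at hm
  have hS' := sylow_conj_mem Nat.prime_two hS (mem_top m⁻¹)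
  obtain ⟨k, k1, hk⟩ := h.fixes n2 hS'.2 h.RA h.R1 (hm.trans h.NR)
  obtain ⟨d, hd, e⟩ := h.swap2 h1 (h.f1 k1)
  rw [← e, ← conj_norm, le_conj_iff] at hk
  have := (sylow_conj_mem Nat.prime_two hS' (mem_top d⁻¹)).not_dvd_relIndex_of_le (le_inf
    (conj_le_of_mem ((𝐍(B)).inv_mem (h.DN hd)) hm) hk)
  rw [relIndex_top_right, Nat.two_dvd_ne_zero, ← Nat.odd_iff] at this
  obtain ⟨c, hc, e1⟩ := h.swap2 h2 h1
  rw [← mul_conj] at e1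
  have e2 : (c * n⁻¹) ⋆ n ⋆ B = B := by rw [mul_conj, inv_conj_conj, conj_of_mem_norm (h.DN hc)]
  have s := swap_norm (t := c * n⁻¹) (α := sj B) (β := sj (n ⋆ B)) e1 e2
  rw [st_sj, st_sj] at s
  have := (mem_of_odd_index this s ⟨conj_eq_self_iff.1 (by rw [mul_conj, e1, e2]),
    conj_eq_self_iff.1 (by rw [mul_conj, e2, e1])⟩).1
  rw [← e1, conj_of_mem_norm this] at h1
  exact h.B1 (by rw [← h.dp.disj, inf_eq_right.2 h1])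

theorem m2 (ha : a ∈ B) (hb : b ∈ B) (a1 : a ≠ 1) (b1 : b ≠ 1) : a = b := by
  obtain ⟨n, hn⟩ := h.f2
  have h' := h.conj n⁻¹
  have k : B ≤ ⁅A, n⁻¹ ⋆ D⁆ := by rw [h.cjR, ← conj_le_iff]; exact hn
  obtain ⟨d, hd, e⟩ := h'.trR (k ha) (k hb) a1 b1
  have nd := h.ti d (ne_bot_of_mem (H := _ ⊓ _) ⟨hb, e ▸ conj_mem_conj d ha⟩ b1)
  obtain ⟨v, hv, w, hw, rfl⟩ := h.cover (by_contra fun k => h.nsp n2 hn (h.f1 k)) (h.hB ha)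
  refine (mul_inv_eq_one.1 (h.one_of ?_ (mul_mem hb (inv_mem ha)))).symm
  rw [← e, ← conj_mul, h'.cB hd hw, mul_inv_rev, mul_assoc, mul_inv_cancel_left]
  exact mul_mem (conj_mem_of_mem_normalizer (h.NR nd) hv) (inv_mem hv)

end Dat

end Cfsg.Agent.Go.Sm
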