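import Cfsg.Agent.Go.Sm3

/-! Part II of notes/goldschmidt.md, case `|B| ≤ q`: the tournament, `|A| = 8`, and the case E8. -/

set_option autoImplicit false
set_option maxHeartbeats 400000

namespace Cfsg.Agent.Go.Sm

open Subgroup MulAction Cfsg.Agent.H1 Cfsg.Agent.L Cfsg.Agent.FT Cfsg.Agent.FT.B1 Cfsg.Agent.Be.P1
open scoped Pointwise commutatorElement

variable {H : Type*} [Group H] [Finite H] {A B D P K L S T U V W X Z : Subgroup H}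
  {a b d f g m n u v x y z δ : H} {p : ℕ}

theorem cent16 (hV : #|V| = 16) (hT : IsPGroup 5 T) (hS : IsPGroup 7 S) (n1 : T ≤ 𝐍(V))
    (n2 : S ≤ 𝐍(V)) (n3 : S ≤ 𝐍(T)) (h : V ⊓ 𝐂(T) = ⊥) : V ≤ 𝐂(S) := by
  have h1 := card_modEq Nat.prime_seven hS n2
  have h2 := dvd16 (hV ▸ card_dvd_of_le' (inf_le_left (b := 𝐂(S))))
  rw [hV, Nat.ModEq] at h1
  by_cases e : #|V ⊓ 𝐂(S)| = 16
  · exact (eq_of_le_of_card_le inf_le_left (by rw [e, hV])).ge.trans inf_le_right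
  have c2 : (#|V ⊓ 𝐂(S)|).Prime := (by omega : #|V ⊓ 𝐂(S)| = 2) ▸ Nat.prime_two
  obtain ⟨w, hw, w1⟩ := exists_mem_ne_one (ne_bot_of_prime c2)
  have sub : orb T (cj w) ⊆ (V : Set H) := by
    rintro _ ⟨t, ht, rfl⟩; exact le_norm_iff.1 n1 t ht w hw.1
  have sw : S ≤ stabilizer H (cj w) := st_cj w ▸ le_cent1_iff.2 hw.2
  have k := card_mod Nat.prime_seven hS (orb_finite T (cj w)) fun s hs x hx =>
    smul_mem_orb_of_norm (n3 hs) ((sw hs).symm ▸ self_mem_orb T _) hx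
  rw [show {x | x ∈ orb T (cj w) ∧ S ≤ stabilizer H x} = {cj w} from
    Set.eq_singleton_iff_unique_mem.2 ⟨⟨self_mem_orb T _, sw⟩, fun x hx => ?_⟩,
    Set.ncard_singleton, ncard_orb, st_cj] at k
  · obtain ⟨j, hj⟩ := pgroup_relIndex Nat.prime_five hT 𝐂[w]
    have le := Set.ncard_le_ncard sub (Set.toFinite (V : Set H))
    rw [ncard_orb, st_cj, hj] at le
    replace le : 5 ^ j ≤ 16 := le.trans hV.le
    rw [hj] at k
    rcases j with _ | _ | j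
    · exact absurd (mem_bot.1 (h ▸ ⟨hw.1, le_cent1_iff.1 (relIndex_eq_one.1 hj)⟩)) w1
    · exact absurd k (by decide)
    · exact absurd le (by rw [pow_add, pow_add]; have := Nat.pow_pos (n := j) (by norm_num : 0 < 5); omega)
  · have hz : (show H from x) ∈ zpowers w := zpowers_eq_of_prime c2 hw w1 ▸
      ⟨sub hx.1, le_cent1_iff.1 (st_cj (H := H) x ▸ hx.2)⟩
    have w2 : w * w = 1 := by
      rw [← pow_two, ← (by omega : #|V ⊓ 𝐂(S)| = 2)]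
      exact congrArg Subtype.val (pow_card_eq_one' (x := (⟨w, hw⟩ : (V ⊓ 𝐂(S) : Subgroup H))))
    refine (Be.zpowers_cases w2 hz).resolve_left fun e => w1 ?_
    obtain ⟨t, -, ht⟩ := hx.1
    exact conj_eq_one_iff.1 (ht.trans e)

theorem tauto_aux {p1 p2 p3 q1 q2 q3 : Prop} (k1 : ¬p3 ↔ (¬p1 ↔ ¬p2)) (k2 : ¬q3 ↔ (¬q1 ↔ ¬q2))
    (k3 : ¬(p3 ↔ q3) ↔ (¬(p1 ↔ q1) ↔ ¬(p2 ↔ q2))) : False := by tauto

namespace Dat
variable (h : Dat A B D P) (n2 : ∀ M : Subgroup H, M.index ≠ 2) (hb : b ∈ B) (b1 : b ≠ 1)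
include h n2 hb b1

theorem eqB : zpowers b = B := le_antisymm (zpowers_le.2 hb) fun a ha => by
  by_cases e : a = 1
  exacts [e ▸ one_mem _, h.m2 n2 ha hb e b1 ▸ mem_zpowers a]

theorem cardB : #|B| = 2 := by
  rw [← h.eqB n2 hb b1, Nat.card_zpowers, orderOf_eq_of_abelem Nat.prime_two h.hA (h.hB hb) b1]

theorem trA (ha : a ∈ A) (a1 : a ≠ 1) : ∃ n : H, n * b * n⁻¹ = a := by
  obtain ⟨n, hn⟩ := h.f5 n2 ha a1
  obtain ⟨β, hβ, rfl⟩ := mem_conj'.1 hn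
  exact ⟨n, by rw [h.m2 n2 hβ hb (mt conj_eq_one_iff.2 a1) b1]⟩

omit n2 in
theorem t1 (e : n * b * n⁻¹ = m * b * m⁻¹) : n ⋆ ⁅A, D⁆ = m ⋆ ⁅A, D⁆ := by
  rw [conj_eq_iff, ← mul_conj, conj_of_mem_norm (h.NR (h.cent_le hb b1 (mem_cent1.2 ?_)))]
  calc _ = n⁻¹ * (m * b * m⁻¹) * m := by group
    _ = _ := by rw [← e]; group

theorem t2 (n : H) (hy : y ∈ A) (hz : z ∈ A) :
    y * z ∈ n ⋆ ⁅A, D⁆ ↔ (y ∈ n ⋆ ⁅A, D⁆ ↔ z ∈ n ⋆ ⁅A, D⁆) :=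
  mul_mem_iff_of_index_two (H := (n ⋆ ⁅A, D⁆).subgroupOf A) (a := ⟨y, hy⟩) (b := ⟨z, hz⟩) (by
    rw [← relIndex, ← h.cjR, (h.conj n).dp.sd.relIndex_left, card_conj, h.cardB n2 hb b1])

theorem t3 (e : m * b * m⁻¹ ≠ b) : m * b * m⁻¹ ∈ ⁅A, D⁆ ↔ b ∉ m ⋆ ⁅A, D⁆ := by
  have k : ∀ {n : H}, n ⋆ B ≤ ⁅A, D⁆ ↔ n * b * n⁻¹ ∈ ⁅A, D⁆ := fun {n} => by
    rw [← h.eqB n2 hb b1, conj_zpowers, zpowers_le]
  refine ⟨fun h1 h2 => h.nsp n2 (k.2 h1) (k.2 (by simpa using mem_conj.1 h2)), fun h1 => ?_⟩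
  by_contra h2
  obtain ⟨n, hn⟩ := h.f2
  have bA := h.hB hb
  have bR : b ∉ ⁅A, D⁆ := fun k => b1 (h.one_of k hb)
  have s : ∀ {y}, y ∈ A → y ∉ ⁅A, D⁆ → y * b ∈ ⁅A, D⁆ := fun hy hy' => by
    simpa [hy', bR] using h.t2 n2 hb b1 1 hy bA
  have s1 : ∀ {y}, y ≠ b → y * b ≠ 1 := fun hy e => hy (by rw [eq_inv_of_mul_eq_one_left e, h.inv bA])
  have n1 := mt k.2 (h.nsp n2 hn)
  obtain ⟨d, hd, e'⟩ := h.trR (s (h.cjm _ bA) n1) (s (h.cjm _ bA) h2) (s1 fun e => bR (by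
    have := k.1 hn
    rwa [← e, show n * (n⁻¹ * b * n⁻¹⁻¹) * n⁻¹ = b by group] at this)) (s1 e)
  rw [← conj_mul, h.cB hd hb, mul_left_inj] at e'
  refine h1 ?_
  rw [← h.t1 hb b1 (n := d * n⁻¹) (by rw [← e']; group), mul_conj, ← h.cB hd hb, conj_mem_conj_iff,
    mem_conj, inv_inv]
  exact k.1 hn

theorem t4 (e : m * b * m⁻¹ ≠ n * b * n⁻¹) :
    m * b * m⁻¹ ∈ n ⋆ ⁅A, D⁆ ↔ n * b * n⁻¹ ∉ m ⋆ ⁅A, D⁆ := by
  have := h.t3 n2 hb b1 (m := n⁻¹ * m) fun k => e (by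
    calc _ = n * (n⁻¹ * m * b * (n⁻¹ * m)⁻¹) * n⁻¹ := by group
      _ = _ := by rw [k])
  rw [mul_conj, ← conj_mem_conj_iff (g := n) (x := b), conj_inv_conj] at this
  rw [← this, mem_conj]
  group

theorem card8 : #|A| = 8 := by
  have c := card_mul_relIndex_of_le h.hB
  have q := h.q4
  rw [h.cardB n2 hb b1] at c
  by_contra hn
  have ex : ∀ {W}, W ≤ A → #|W| ≤ 8 → ∃ a ∈ A, a ∉ W := fun h1 h2 =>
    SetLike.not_le_iff_exists.1 fun e => by have := card_le_of_le' e; omega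
  have bA := h.hB hb
  have c1 := h.cardB n2 hb b1
  obtain ⟨a, ha, a1⟩ := ex h.hB (by omega)
  have w1 := sup_le h.hB (zpowers_le.2 ha)
  have c2 := h.card_sup h.hB ha
  obtain ⟨y, hy, y1⟩ := ex w1 (by omega)
  have c3 := h.card_sup w1 hy
  obtain ⟨z, hz, z1⟩ := ex (sup_le w1 (zpowers_le.2 hy)) (by omega)
  have m1 : b ∈ B ⊔ zpowers a := mem_sup_left hb
  have m2 : a ∈ B ⊔ zpowers a := mem_sup_right (mem_zpowers a)
  obtain ⟨i, hi⟩ := h.trA n2 hb b1 ha fun e => a1 (e ▸ one_mem _)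
  obtain ⟨j, hj⟩ := h.trA n2 hb b1 (mul_mem bA ha) fun e =>
    a1 (eq_inv_of_mul_eq_one_right e ▸ inv_mem hb)
  have key : ∀ t ∈ A, t ∉ B ⊔ zpowers a →
      (t ∉ j ⋆ ⁅A, D⁆ ↔ (t ∉ (1 : H) ⋆ ⁅A, D⁆ ↔ t ∉ i ⋆ ⁅A, D⁆)) := fun t ht ht' => by
    obtain ⟨k, rfl⟩ := h.trA n2 hb b1 ht fun e => ht' (e ▸ one_mem _)
    rw [← h.t4 n2 hb b1 fun e => ht' (by rw [← e, hj]; exact mul_mem m1 m2),
      ← h.t4 n2 hb b1 fun e => ht' (by rw [← e]; simpa using m1),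
      ← h.t4 n2 hb b1 fun e => ht' (by rw [← e, hi]; exact m2), hi, hj, h.t2 n2 hb b1 k bA ha]
    simp
  have k1 := key y hy y1
  have k2 := key z hz fun e => z1 (mem_sup_left e)
  have k3 := key _ (mul_mem hy hz) fun e => z1
    (((B ⊔ zpowers a ⊔ zpowers y).mul_mem_cancel_left (mem_sup_right (mem_zpowers y))).1 (mem_sup_left e))
  simp only [h.t2 n2 hb b1 _ hy hz] at k3
  exact tauto_aux k1 k2 k3

theorem oddC : Odd (𝐂(A)).index := by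
  haveI := h.nC
  rw [← Nat.not_even_iff_odd, even_iff_two_dvd]
  intro e
  obtain ⟨g, hg⟩ := exists_prime_orderOf_dvd_card' (G := H ⧸ 𝐂(A)) 2 e
  obtain ⟨g, rfl⟩ := QuotientGroup.mk_surjective g
  have g2 : g * g ∈ 𝐂(A) := by
    rw [← QuotientGroup.eq_one_iff, QuotientGroup.mk_mul, ← pow_two, ← hg, pow_orderOf_eq_one]
  have g1 : g ∉ 𝐂(A) := fun k => by
    rw [(QuotientGroup.eq_one_iff g).2 k, orderOf_one] at hg; omega
  obtain ⟨x, hx, x1⟩ : ∃ x ∈ A, x * g ≠ g * x := by simpa [mem_cent] using g1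
  obtain ⟨n, rfl⟩ := h.trA n2 hb b1 hx fun e => x1 (by simp [e])
  have := h.t4 n2 hb b1 (m := g * n) (n := n) fun e => x1 (by
    calc _ = g * n * b * (g * n)⁻¹ * g := by rw [e]
      _ = _ := by group)
  rw [← conj_mem_conj_iff (g := g), ← mul_conj] at this
  have e : g * (g * n * b * (g * n)⁻¹) * g⁻¹ = n * b * n⁻¹ := by
    calc _ = g * g * (n * b * n⁻¹) * (g * g)⁻¹ := by group
      _ = _ := by rw [← mem_cent.1 g2 _ hx, mul_inv_cancel_right]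
  exact iff_not_self (e ▸ this)

theorem orbA (hX : ∀ g : H, ∃ x ∈ X, ∃ c ∈ 𝐂(A), x * c = g) : (𝐂[b]).relIndex X = 7 := by
  have := ncard_diff (bot_le (a := A))
  rw [h.card8 n2 hb b1, card_bot] at this
  rw [← st_cj, ← ncard_orb, show orb X (cj b) = (A : Set H) \ (⊥ : Subgroup H) from
    Set.ext fun a => ⟨?_, fun ha => ?_⟩]
  · exact Nat.add_right_cancel this
  · rintro ⟨x, -, rfl⟩
    exact ⟨h.cjm x (h.hB hb), fun e => b1 (conj_eq_one_iff.1 e)⟩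
  · obtain ⟨n, hn⟩ := h.trA n2 hb b1 ha.1 ha.2
    obtain ⟨x, hx, c, hc, rfl⟩ := hX n
    refine ⟨x, hx, Eq.trans ?_ hn⟩
    rw [mul_assoc x c b, ← mem_cent.1 hc b (h.hB hb)]
    exact (by group : x * b * x⁻¹ = x * (b * c) * (x * c)⁻¹)

end Dat

end Cfsg.Agent.Go.Sm
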