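import Cfsg.Agent.Go.Sm4

/-! Part II of notes/goldschmidt.md, case `|B| ≤ q`: the case E8 and the result `small`. -/

set_option autoImplicit false
set_option maxHeartbeats 400000

namespace Cfsg.Agent.Go.Sm

open Subgroup MulAction Cfsg.Agent.H1 Cfsg.Agent.L Cfsg.Agent.FT Cfsg.Agent.FT.B1 Cfsg.Agent.Be.P1
open scoped Pointwise commutatorElement

variable {H : Type*} [Group H] [Finite H] {A B D P Y : Subgroup H} {b δ : H}

namespace Dat
variable (h : Dat A B D P)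
include h

omit [Finite H] in
theorem CN : 𝐂(A) ≤ 𝐍(B) := le_norm_of_le_cent (cent_anti h.hB)

theorem commY [Y.Normal] (h1 : Y ≤ 𝐂(A)) (h2 : IsPGroup 2 Y) : ⁅Y, D⁆ ≤ P :=
  h.leP (comm_le_right (h1.trans (h.CN.trans h.ND))) (h2.to_le (commutator_le_left _ _))

theorem caseA (hO : core {2}ᶜ 𝐂(A) = ⊥) (ho : Odd (𝐂(A)).index) (hP : P ≤ A) :
    ∃ T : Subgroup H, T.Normal ∧ DProd A T 𝐂(A) := by
  haveI := h.nC
  haveI := h.nA
  have o : ∀ {K}, K ⊴ 𝐂(A) → core {2}ᶜ K = ⊥ := fun k => eq_bot_iff.2 (hO ▸ k.core_le _)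
  obtain ⟨R, sd, hR⟩ := ((sylow_hall Nat.prime_two h.syl).of_le (le_inf h.e1 h.hP.le)
    inf_le_right).exists_sdprod (inf_le_right.trans h.hP.norm)
  have eR := hR.eq_core (sd.sup ▸ sup_le (le_norm_of_le_cent (le_cent_symm
    (le_cent_of_le (hR.le.trans inf_le_left) hP))) le_normalizer)
  rw [o (NormalIn.inf_of_norm (h.CN.trans h.ND))] at eR
  have dM : D ≤ centMod 𝐂(A) A := le_centMod_iff.2 ⟨le_norm_of_normal _ _, h.nrm _,
    (comm_le_inf (le_norm_of_normal _ _) (h.CN.trans h.ND)).trans (by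
      rw [← sd.sup, eR, sup_bot_eq]; exact hP)⟩
  have cM := comm_centMod_le 𝐂(A) A
  haveI : (centMod 𝐂(A) A).Normal :=
    NormalIn.top_iff.1 ⟨le_top, le_norm_centMod (le_norm_of_normal _ _) (h.nrm _)⟩
  generalize centMod 𝐂(A) A = M at *
  have nil : Group.IsNilpotent (𝐂(A) ⊓ M : Subgroup H) := (NilMod.of_der1_le
    ((commutator_mono inf_le_left inf_le_right).trans cM)).nil_of_le_cent (le_cent_symm inf_le_left)
  have e := (nil_dprod_core nil {2}).sup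
  rw [o (NormalIn.of_normal inf_le_left), sup_bot_eq] at e
  obtain ⟨E, sE, hE⟩ := HallIn.exists_sdprod (π := {2}) (K := 𝐂(A) ⊓ M) ⟨inf_le_right,
    e ▸ core_pi _ _, (isPiNum_compl_singleton_iff Nat.prime_two).2 (by
      rw [inf_relIndex_right]
      exact (ho.of_dvd_nat (relIndex_dvd_index_of_normal _ _)).not_two_dvd_nat)⟩
    (le_norm_of_normal _ _)
  have a0 : A ⊓ 𝐂(E) = ⊥ := by
    have : A ⊓ 𝐂(E) = A ⊓ 𝐂(M) := by
      rw [← sE.sup, cent_sup, ← inf_assoc, inf_eq_left.2 (le_cent_symm (inf_le_left (b := M)))]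
    rw [this]
    exact (h.irr _ inf_le_left inferInstance).resolve_right fun k =>
      h.notC (dM.trans (le_cent_symm (k.ge.trans inf_le_right)))
  have dp : DProd A (𝐂(A) ⊓ 𝐂(E)) 𝐂(A) := by
    refine ⟨inf_le_left, eq_bot_iff.2 (a0 ▸ inf_le_inf_left _ inf_le_right),
      le_antisymm (sup_le h.AC inf_le_left) fun c hc => ?_⟩
    obtain ⟨a, ha, t, ht, rfl⟩ := exists_centralizer_mul (h.nrm E) ((piGrp_of_isPGroup (π := {2})
      Nat.prime_two (abelem_pgroup h.hA) rfl).coprime' hE.pi).symm (Or.inr (sol_of_comm h.hA.1))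
      fun x hx => cM (commutator_mem_commutator hc (hE.le hx))
    exact mul_mem (mem_sup_left ha)
      (mem_sup_right ⟨((𝐂(A)).mul_mem_cancel_left (h.AC ha)).1 hc, ht⟩)
  refine ⟨_, ?_, dp⟩
  have : 𝐂(A) ⊓ 𝐂(E) = 𝐂(A) ⊓ 𝐂(M) := by
    refine le_antisymm (le_inf inf_le_left ?_) (inf_le_inf_left _ (cent_anti hE.le))
    rw [← sE.sup, cent_sup]
    exact le_inf (comm_eq_bot_iff.1 (eq_bot_iff.2 (dp.disj ▸ le_inf
      ((commutator_mono inf_le_left inf_le_right).trans cM)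
      (dp.normal_right.comm_le_left inf_le_left)))) inf_le_right
  rw [this]
  infer_instance

variable (n2 : ∀ M : Subgroup H, M.index ≠ 2) (hb : b ∈ B) (b1 : b ≠ 1)
  (h16 : (phi P).relIndex P = 16) (d1 : δ ∈ D) (d2 : δ ∈ 𝐂(A)) (d3 : IsPGroup 5 (zpowers δ))
  (d4 : ¬ ⁅P, zpowers δ⁆ ≤ phi P)
include n2 hb b1 h16 d1 d2 d3 d4

theorem normalP : P.Normal := by
  haveI := h.nC
  set Y := normalClosure (P : Set H)
  have PY : P ≤ Y := le_normalClosure
  haveI : (core {2} 𝐂(A)).Normal := NormalIn.top_iff.1 ((NormalIn.of_normal le_top).core _)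
  have y1 : Y ≤ core {2} 𝐂(A) := normalClosure_le_normal
    (le_core_of_pgroup Nat.prime_two ⟨h.e1, h.CN.trans h.NP⟩ h.P2)
  have y2 := (core_pgroup Nat.prime_two _).to_le y1
  replace y1 := y1.trans (core_le _ _)
  haveI : (phi Y).Normal := NormalIn.top_iff.1 (NormalIn.of_normal le_top).phi
  have cY : ∀ n : H, n ⋆ P ≤ Y := fun n => conj_normal Y n ▸ conj_mono n PY
  have nZ : ∀ n : H, zpowers δ ≤ 𝐍(n ⋆ P) := fun n =>
    zpowers_le.2 ((h.conj n).NP ((h.conj n).CN d2))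
  have nP := zpowers_le.2 (h.hP.norm d1)
  have k : ∀ n, n ∉ 𝐍(P ⊔ phi Y) → P ⊓ (n ⋆ P ⊔ phi Y) = phi P := fun n hn =>
    (irr5 nP d3 h16 d4 (le_inf (phi_le P) ((phi_mono Nat.prime_two y2 PY).trans le_sup_right))
      inf_le_left (le_normalizer_inf nP (le_normalizer_sup (nZ n) (le_norm_of_normal _ _)))).resolve_right
      fun e => hn ((𝐍(P ⊔ phi Y)).inv_mem_iff.1 (mem_norm_of_conj_le (le_conj_iff.1 (by
        rw [conj_sup, conj_normal (phi Y)]; exact sup_le (e.ge.trans inf_le_right) le_sup_right))))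
  have k' : ∀ n, n ∉ 𝐍(P ⊔ phi Y) → ⁅n ⋆ P, zpowers δ⁆ ≤ phi Y := fun n hn =>
    (le_inf ((commutator_mono (cY n) (zpowers_le.2 d1)).trans (h.commY y1 y2))
      ((comm_le_left (nZ n)).trans le_sup_left)).trans ((k n hn).le.trans (phi_mono Nat.prime_two y2 PY))
  have i7 := h.orbA n2 hb b1 (X := ⊤) fun g => ⟨g, trivial, 1, one_mem _, mul_one g⟩
  have := relIndex_mul_index ((h.cent_le hb b1).trans
    (le_normalizer_sup h.NP (le_norm_of_normal (phi Y) _)))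
  rw [← relIndex_top_right (H := 𝐂[b]), i7] at this
  rcases (Nat.dvd_prime Nat.prime_seven).1 (Dvd.intro_left _ this) with e | e
  · haveI : (P ⊔ phi Y).Normal := NormalIn.top_iff.1 ⟨le_top, (index_eq_one.1 e).ge⟩
    rw [eq_of_le_sup_phi PY (normalClosure_le_normal (N := P ⊔ phi Y) fun _ e => mem_sup_left e)]
    infer_instance
  rw [e] at this
  have N1 := relIndex_eq_one.1 (Nat.eq_of_mul_eq_mul_right (by norm_num) (this.trans (one_mul 7).symm))
  obtain ⟨n, hn⟩ := h.f2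
  have h' := h.conj n⁻¹
  have g1 : n⁻¹ ∉ 𝐍(P ⊔ phi Y) := fun e => h.nsp n2 hn (by
    have := h.cent_le hb b1 (N1 e)
    rw [conj_of_mem_norm this]
    rwa [conj_of_mem_norm ((𝐍(B)).inv_mem_iff.1 this)] at hn)
  have bR : b ∈ ⁅A, n⁻¹ ⋆ D⁆ := by rw [h.cjR, mem_conj, inv_inv]; exact hn (conj_mem_conj n hb)
  obtain ⟨ρ, r1, r2⟩ : ∃ ρ ∈ n⁻¹ ⋆ D, ρ ∉ 𝐂[b] := SetLike.not_le_iff_exists.1 fun e => by
    have := card_le_of_le' (show ⁅A, n⁻¹ ⋆ D⁆ ≤ B from fun v hv => by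
      by_cases v1 : v = 1
      · exact v1 ▸ one_mem _
      obtain ⟨d, hd, rfl⟩ := h'.trR bR hv b1 v1
      rwa [mem_cent1.1 (e hd), mul_inv_cancel_right])
    have c := h'.dp.card
    rw [card_conj, h.card8 n2 hb b1] at c
    rw [h.cardB n2 hb b1] at c this
    omega
  refine absurd ((le_inf (comm_le_left nP) (((commutator_mono (K₁ := n⁻¹ ⋆ P ⊔ ρ ⋆ P) (fun y hy => ?_)
    le_rfl).trans (comm_sup_left_le (k' _ g1) (k' _ (mt (@N1 ρ) r2)) (le_norm_of_normal _ _)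
    (le_norm_of_normal _ _))).trans le_sup_right)).trans (k _ g1).le) d4
  have := mul_mem (mem_sup_left (h'.commY y1 y2 (commutator_mem_commutator (PY hy) r1)))
    (mem_sup_right (conj_mem_conj ρ hy))
  rwa [show ⁅y, ρ⁆ * (ρ * y * ρ⁻¹) = y by rw [commutatorElement_def]; group] at this

theorem caseU : False := by
  haveI := h.nC
  haveI := h.nA
  haveI := h.normalP n2 hb b1 h16 d1 d2 d3 d4
  haveI : Fact (Nat.Prime 7) := ⟨Nat.prime_seven⟩
  haveI : (phi P).Normal := NormalIn.top_iff.1 (NormalIn.of_normal le_top).phi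
  have AP : A ≤ P := ((h.irr (A ⊓ P) inf_le_left inferInstance).resolve_left (ne_bot_of_le h.R1
    (le_inf h.RA (h.commY h.AC (abelem_pgroup h.hA))))).ge.trans inf_le_right
  obtain ⟨T, hT, zT⟩ := exists_isSylowIn_ge d3 (zpowers_le.2 d2)
  obtain ⟨S, hS⟩ := exists_isSylowIn 7 𝐍(T)
  have n := fun X => le_norm_of_normal (phi P) X
  have c : #|P /' phi P| = 16 := by rw [card_quo (n _), h16]
  have nT := mim_le_norm (coset (phi P)) (le_norm_of_normal P T)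
  have := cent16 c (pgroup_mim hT.2 _) (pgroup_mim hS.2 _) nT
    (mim_le_norm _ (le_norm_of_normal P S)) (mim_le_norm _ hS.le) (fpf16 c (pgroup_mim hT.2 _) nT
      fun e => d4 ((commutator_mono le_rfl zT).trans ((quo_le_cent_iff (n _) (n _)).1 e)))
  have := coprime_cent_phi Nat.prime_two h.P2 (le_norm_of_normal P S) (pgroup_coprime_pgroup
    Nat.prime_two Nat.prime_seven (by norm_num) h.P2 hS.2) ((quo_le_cent_iff (n _) (n _)).1 this)
  refine hS.not_dvd_relIndex_of_le (this.trans (cent_le_cent1 (AP (h.hB hb)))) ?_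
  rw [h.orbA n2 hb b1 fun g => ?_]
  haveI : Fact (Nat.Prime 5) := ⟨Nat.prime_five⟩
  obtain ⟨c, hc, e⟩ := hT.frattini (le_norm_of_normal _ ⊤) (mem_top g)
  exact ⟨c * g, e, g⁻¹ * c⁻¹ * g, Normal.conj_mem' inferInstance _ (inv_mem hc) g, by group⟩

end Dat

/-- The small case of Part II. -/
theorem Dat.small (h : Dat A B D P) (n2 : ∀ M : Subgroup H, M.index ≠ 2)
    (hO : core {2}ᶜ 𝐂(A) = ⊥) : #|A| = 8 ∧ (∀ a ∈ A, ∀ b ∈ A, a ≠ 1 → b ≠ 1 → IsConj a b) ∧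
      Odd (𝐂(A)).index ∧ ∃ T : Subgroup H, T.Normal ∧ DProd A T 𝐂(A) := by
  obtain ⟨b, hb, b1⟩ := exists_mem_ne_one h.B1
  have c8 := h.card8 n2 hb b1
  refine ⟨c8, fun x hx y hy x1 y1 => (isConj_iff.2 (h.trA n2 hb b1 hx x1)).symm.trans
    (isConj_iff.2 (h.trA n2 hb b1 hy y1)), h.oddC n2 hb b1, ?_⟩
  have c := card_mul_relIndex_of_le h.hB
  rw [h.cardB n2 hb b1, c8] at c
  rcases h.f4 (by omega) with k | ⟨h16, δ, ⟨d1, d2⟩, ⟨k, d3⟩, d4⟩
  · exact h.caseA hO (h.oddC n2 hb b1) k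
  · exact (h.caseU n2 hb b1 h16 d1 d2 (pgroup_of_pow d3) d4).elim

end Cfsg.Agent.Go.Sm
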