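import Cfsg.Agent.Go.Big2

/-! Goldschmidt, Part II: the extra structure of components used in the small case. -/

set_option autoImplicit false

namespace Cfsg.Agent.Go

open Subgroup Cfsg Cfsg.Agent.FT
open scoped Pointwise commutatorElement

universe u

/-- the Sylow `2`-subgroup `P` of `N_K(A)`, for a component `K` not centralised by `A` -/
structure CP {Y : Type*} [Group Y] (A K P : Subgroup Y) : Prop where
  hP : P ⊴ K ⊓ 𝐍(A)
  P2 : IsPGroup 2 P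
  Po : Odd (P.relIndex (K ⊓ 𝐍(A)))
  fx : ∀ x ∈ P, ∃ a ∈ A, a ∉ 𝐂(K) ∧ x * a = a * x
  f4 : (𝐂(K)).relIndex A = 4 → P ≤ A ∨ ((phi P).relIndex P = 16 ∧
    ∃ δ ∈ K ⊓ 𝐂(A), (∃ k, δ ^ 5 ^ k = 1) ∧ ¬ ⁅P, zpowers δ⁆ ≤ phi P)

/-- `CP` for the components of all `C(g)/O(C(g))`, `g ∈ A#` -/
def StP {G : Type u} [Group G] (A : Subgroup G) : Prop :=
  ∀ g ∈ A, g ≠ 1 → ∀ (Y : Type u) [Group Y] [Finite Y] (f : 𝐂[g] →* Y), Loc g f →
    ∀ K : Subgroup Y, IsComponent K → ¬ mim f A ≤ 𝐂(K) → ∃ P, CP (mim f A) K P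

end Cfsg.Agent.Go
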