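import Cfsg.Agent.Go.St3
import Cfsg.Agent.Go.Big3
import Cfsg.Agent.Go.E0

/-! Goldschmidt: the slice `St4` of the rank two endgame. -/

set_option autoImplicit false
set_option linter.unusedSectionVars false

namespace Cfsg.Agent.Go

open Subgroup Cfsg Cfsg.Agent.H1 Cfsg.Agent.L Cfsg.Agent.FT Cfsg.Agent.Sg Cfsg.Agent.R1
  Cfsg.Agent.H6
open scoped Pointwise commutatorElement

section
variable {U : Type*} [Group U] [Finite U] {A K R T V : Subgroup U} {r g : U}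

theorem burnside_fusion (hT : L.IsSylowIn 2 T ⊤) (h1 : r ∈ 𝐂(T)) (h2 : g * r * g⁻¹ ∈ 𝐂(T)) :
    ∃ n ∈ 𝐍(T), n * r * n⁻¹ = g * r * g⁻¹ := by
  obtain ⟨c, hc, e⟩ := sylow_exists_conj_le Nat.prime_two (hT.of_le (le_cent1_iff.2 h2) le_top)
    (X := g ⋆ T) (by rw [← conj_cent1]; exact conj_mono g (le_cent1_iff.2 h1)) (pgroup_conj hT.isPGroup g)
  refine ⟨c * g, mem_norm_of_conj_le (by rwa [mul_conj]), ?_⟩
  calc _ = c * (g * r * g⁻¹) * c⁻¹ := by group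
    _ = _ := by rw [mem_cent1.1 hc, mul_inv_cancel_right]

/-- a `2`-group of automorphisms centralising an abelian Sylow subgroup is inner -/
theorem le_of_cent_sylow (hO : oddCore U = ⊥) (nK : K ⊴ ⊤) (hC : 𝐂(K) = ⊥) (hV : L.IsSylowIn 2 V K)
    (h1 : V ≤ T) (h2 : IsPGroup 2 T) (h3 : T ≤ 𝐂(V)) (h4 : K ⊔ T = ⊤) : T ≤ V := by
  have k : ∀ T' : Subgroup U, IsPGroup 2 T' → T ≤ T' → K ⊓ T' = V := fun T' p h =>
    hV.maximal _ (p.to_le inf_le_right) (le_inf hV.le (h1.trans h)) inf_le_left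
  have hT : L.IsSylowIn 2 T ⊤ := ⟨le_top, h2, fun T' p h _ => by
    have := sup_inf_modular' h (Or.inl (le_top.trans nK.norm))
    rwa [h4, top_inf_eq, k T' p h, sup_eq_right.2 h1] at this⟩
  obtain ⟨H, sd, hH⟩ := (sylow_hall Nat.prime_two (hT.of_le le_normalizer le_top)).exists_sdprod le_rfl
  have HK : H ≤ K := nK.le_of_coprime le_top (by
    obtain ⟨n, e⟩ := pgroup_relIndex Nat.prime_two h2 K
    rw [← h4, relIndex_sup_of_norm (le_top.trans nK.norm), e]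
    exact Nat.Coprime.pow_right _ ((Nat.Prime.coprime_iff_not_dvd Nat.prime_two).2
      ((piGrp_compl_iff Nat.prime_two).1 hH.pi)).symm)
  have h5 : ⁅T, H⁆ ≤ V := (le_inf ((commutator_mono le_top HK).trans (comm_le_right nK.norm))
    (comm_le_left sd.norm)).trans (k T h2 le_rfl).le
  have h6 := commutator_sup_centralizer sd.norm (cop_two h2 (odd_iff_piGrp.2 hH.pi)).symm
    (Or.inr (sol_of_pgroup Nat.prime_two h2))
  suffices e : T ⊓ 𝐂(H) = ⊥ by rw [← h6, e, sup_bot_eq]; exact h5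
  by_contra e
  obtain ⟨r, hr, r1⟩ := exists_mem_ne_one (inf_cent_ne_bot_of_pgroup Nat.prime_two
    (h2.to_le inf_le_left) h2 (h6.ge.trans (sup_le (le_norm_of_le_cent (h5.trans
      (le_cent_of_le (le_cent_symm h3) inf_le_left))) le_normalizer)) e)
  have z := zstar_wc hT.toSylowTop hr.1.1 fun g hg => by
    obtain ⟨x, hx, t, ht, rfl⟩ := (nK.mem_sup le_top).1 (h4.ge (mem_top g))
    have e1 : x * t * r * (x * t)⁻¹ * r⁻¹ = x * (r * x⁻¹ * r⁻¹) := by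
      calc _ = x * (t * r) * t⁻¹ * x⁻¹ * r⁻¹ := by group
        _ = _ := by rw [mem_cent.1 hr.2 t ht]; group
    have m : x * t * r * (x * t)⁻¹ * r⁻¹ ∈ V := (k T h2 le_rfl).le (mem_inf.2 ⟨by
      rw [e1]; exact mul_mem hx (nK.conj_mem trivial (inv_mem hx)),
        mul_mem hg (inv_mem (mem_inf.1 (mem_inf.1 hr).1).1)⟩)
    obtain ⟨n, hn, e2⟩ := burnside_fusion hT hr.2 (g := x * t)
      (by simpa using mul_mem (le_cent_symm h3 m) hr.2)
    obtain ⟨s, hs, y, hy, rfl⟩ := sd.mem_iff.1 hn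
    rw [← e2]
    calc _ = s * (y * r) * y⁻¹ * s⁻¹ := by group
      _ = s * r * s⁻¹ := by rw [mem_cent.1 hr.1.2 y hy]; group
      _ = _ := by rw [mem_cent.1 hr.2 s hs, mul_inv_cancel_right]
  refine r1 (mem_bot.1 (hC ▸ mem_cent.2 fun g _ => ?_))
  have := z g
  rw [hO, mem_bot, mul_inv_eq_one, mul_inv_eq_iff_eq_mul] at this
  exact this.symm

theorem le_sup_cent (hK : IsComponent K) (hA : A ≤ K) (hs : L.IsSylowIn 2 (A ⊔ zent K) K)
    (h1 : A ≤ R) (h2 : IsPGroup 2 R) (h3 : R ≤ 𝐂(A)) (hn : R ≤ 𝐍(K)) (hc : IsPGroup 2 (zent K)) :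
    R ≤ A ⊔ 𝐂(K) := by
  have nK := NormalIn.sup_left hn
  obtain ⟨W, _, _, ψ, p1, p2⟩ := exists_quo (NormalIn.subcent nK.norm)
  have hk : IsPGroup 2 (mker ψ) := by
    obtain ⟨W', _, _, φ, q1, q2⟩ := exists_quo nK
    refine (piGrp_iff_isPGroup Nat.prime_two).1 (piGrp_of_mim (f := φ) (mker_le ψ) ?_ ?_)
    · refine ((piGrp_iff_isPGroup Nat.prime_two).2 (pgroup_mim h2 φ)).of_le
        ((mim_mono φ (mker_le ψ)).trans ?_)
      rw [← mim_mker_sup φ le_sup_right, q2]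
    · rw [q2, p2]
      exact ((piGrp_iff_isPGroup Nat.prime_two).2 hc).of_le (inf_le_inf_left _ inf_le_right)
  have hV := sylow_mim Nat.prime_two hs le_sup_left ψ
  have e : mim ψ (A ⊔ zent K) = mim ψ A := le_antisymm ((mim_le_mim_iff (hs.le.trans le_sup_left)
    (hA.trans le_sup_left)).2 (sup_le_sup_left (p2 ▸ inf_le_inf_right _ le_sup_left) _))
    (mim_mono ψ le_sup_left)
  have bot : ∀ X : Subgroup W, mpre ψ X ≤ 𝐂(K) → X = ⊥ := fun X h => by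
    rw [← mim_mpre (f := ψ) (le_top.trans p1.ge : X ≤ _), mim_eq_bot_iff (mpre_le _ _), p2]
    exact le_inf (mpre_le _ _) h
  have := le_of_cent_sylow (bot _ (comp_cent_of_sol hK (sol_mpre (sol_of_odd odd_card_oddCore)
      (sol_of_pgroup Nat.prime_two hk)) (le_sup_left.trans
      (norm_mpre ψ (NormalIn.top_iff.2 Be.oddCore_normal))))) (p1 ▸ nK.mim ψ)
    (bot _ (le_centralizer_of_commutator_perfect (qs_commutator hK.2) (((comm_le_mker_iff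
      (mpre_le _ _) le_sup_left).2 (mim_mpre_le _ _)).trans (p2.le.trans inf_le_right))))
    (e ▸ hV) (mim_mono ψ h1) (pgroup_mim h2 ψ) (mim_le_cent ψ h3)
    (by rw [← mim_sup ψ le_sup_left le_sup_right, p1])
  exact ((mim_le_mim_iff le_sup_right (hA.trans le_sup_left)).1 this).trans
    (sup_le_sup_left (p2.le.trans inf_le_right) _)

theorem le_cent_of_odd_index (h : SC A) (ho : Odd (𝐂(A)).index) (h1 : A ≤ R) (h2 : IsPGroup 2 R) :
    R ≤ 𝐂(A) := by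
  have := relIndex_dvd_of_le_of_norm le_top le_top (le_norm_cent (h.sci.le_norm h2 h1 le_top))
  obtain ⟨n, e⟩ := pgroup_relIndex Nat.prime_two h2 𝐂(A)
  rw [relIndex_top_right, e] at this
  rw [← relIndex_eq_one, e]
  exact (Nat.Coprime.pow_left n (Nat.coprime_two_left.2 ho)).eq_one_of_dvd this

end

section
variable {G : Type*} [Group G] {A Y H : Subgroup G} {a t y : G}

theorem le_KK (hy : y ∈ Y) : y ⋆ A ≤ KK A Y := le_iSup₂ (f := fun y (_ : y ∈ Y) => y ⋆ A) y hy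

theorem KK_le_of (h : ∀ y ∈ Y, y ⋆ A ≤ H) : KK A Y ≤ H := iSup₂_le h

theorem self_le_KK (A Y : Subgroup G) : A ≤ KK A Y := by simpa using le_KK (A := A) (one_mem Y)

theorem KK_le (h : A ≤ Y) : KK A Y ≤ Y := KK_le_of fun _ hy => conj_le_of_mem hy h

theorem norm_KK (A Y : Subgroup G) : Y ≤ 𝐍(KK A Y) := le_norm_of_conj fun n hn =>
  conj_le_iff.2 (KK_le_of fun x hx => conj_le_iff.1 (by rw [← mul_conj]; exact le_KK (mul_mem hn hx)))

variable [Finite G]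

theorem sys_se (S : Sz.Sys G) : IsStronglyEmbedded S.H :=
  isStronglyEmbedded_iff.2 ⟨fun e => S.tH (e ▸ mem_top _), even_iff_two_dvd.2
    (Be.two_of_sq S.ss S.s1 ▸ S.H.orderOf_dvd_natCard (S.QH S.sQ)), fun _ ht t2 _ hg =>
      S.mem_H_of_conj (S.inv_mem_Q ht (Be.sq_of_two t2)) (Be.ne_one_of_two t2) hg⟩

theorem exists_third (h : 4 ≤ #|A|) (a : G) : ∃ c ∈ A, c ≠ 1 ∧ c ≠ a := by
  by_contra hc
  push Not at hc
  have h1 : (A : Set G) ⊆ {1, a} := fun c m => by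
    by_cases e : c = 1
    · exact Or.inl e
    · exact Or.inr (hc c m e)
  have h2 := Set.ncard_le_ncard h1
  have h3 := Set.ncard_insert_le 1 ({a} : Set G)
  rw [Set.ncard_singleton] at h3
  change 4 ≤ (A : Set G).ncard at h
  omega

theorem TIc.odd_T (h : TIc A) (ha : a ∈ A) (ht : t ∈ TT A a) : Odd (orderOf t) :=
  Be.odd_orderOf_of_mem (odd_core _) (comm_le_left (norm_Oc (h.sq.cent1 ha)) ht)

/-- `t² = [t, c]` for `t ∈ T_a` -/
theorem TIc.sq_eq (h : TIc A) (ha : a ∈ A) (a1 : a ≠ 1) :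
    ∃ c ∈ A, ∀ t ∈ TT A a, t * c * t⁻¹ * c⁻¹ = t * t := by
  obtain ⟨c, hc, c1, ca⟩ := exists_third h.card.ge a
  refine ⟨c, hc, fun t ht => ?_⟩
  have := h.inv a ha c hc a1 c1 ca _ (inv_mem ht)
  rw [mul_assoc, mul_assoc, ← mul_assoc c, this, inv_inv]

end

instance instSt4 [Be.BeI] : St4 := ⟨fun {G} _ _ _ {A Y a b} ih h hY hA ha hb a1 b1 ab xa xb => by
  obtain ⟨W, _, _, φ, p1, p2⟩ := exists_quo (core_normal {2}ᶜ Y)
  have su : Function.Surjective φ := fun w => let ⟨x, _, e⟩ := p1.ge (mem_top w); ⟨x, e⟩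
  have oO : Odd #|mker φ| := p2 ▸ odd_core Y
  have hO : core {2}ᶜ (⊤ : Subgroup W) = ⊥ := by
    have := mpre_core (f := φ) (π := {2}ᶜ) le_rfl (mker_le φ) (odd_iff_piGrp.1 oO)
    rw [← mim_mpre (f := φ) (H := Y) (le_top.trans p1.ge : core _ _ ≤ _), ← p1, this, ← p2, mim_mker]
  have cf := ih.cf (card_lt_of_surj hY su) ((h.sc.sci.mono hA le_top).sub.map φ su) (h.sq.mim φ) hO
  change CF (mim φ A) at cf
  obtain ⟨x, hx, x1, hxO⟩ := h.odd _ oO (hA.trans (dom_le_norm_mker φ))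
  -- the `T_c ∩ Y` do not all have images of `2`-power order
  have main : ¬ ∀ c ∈ A, c ≠ 1 → ∀ t : Y, (t : G) ∈ TT A c → ∃ k, φ t ^ 2 ^ k = 1 := fun hc => by
    have k : ∀ c ∈ A, c ≠ 1 → TT A c ⊓ Y ≠ ⊥ → x = c := fun c m c1 ne => by_contra fun xc => by
      obtain ⟨t, ht, t1⟩ := exists_mem_ne_one ne
      obtain ⟨k, e⟩ := hc c m c1 ⟨t, ht.2⟩ ht.1
      have o := h.odd_T m ht.1
      have e1 : φ ⟨t, ht.2⟩ = 1 := orderOf_eq_one_iff.1 (Nat.Coprime.eq_one_of_dvd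
        (Nat.Coprime.pow_right k (Nat.coprime_two_right.2 (o.of_dvd_nat
          ((orderOf_map_dvd φ _).trans (orderOf_coe _).symm.dvd)))) (orderOf_dvd_of_pow_eq_one e))
      have e2 := h.inv c m x hx c1 x1 xc t ht.1
      rw [← mem_cent1.1 (hxO (coe_mem_mker.2 e1)), mul_inv_cancel_right, eq_inv_iff_mul_eq_one] at e2
      exact t1 (Sz.eq_one_of_odd_of_sq o e2)
    exact ab ((k a ha a1 xa).symm.trans (k b hb b1 xb))
  have sqm : ∀ c ∈ A, c ≠ 1 → ∃ d ∈ mim φ A, ∀ t : Y, (t : G) ∈ TT A c →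
      φ t * d * (φ t)⁻¹ * d⁻¹ = φ t * φ t := fun c m c1 => by
    obtain ⟨d, hd, e⟩ := h.sq_eq m c1
    refine ⟨_, mem_mim_of_mem φ ⟨d, hA hd⟩ hd, fun t ht => ?_⟩
    rw [← map_inv, ← map_inv, ← map_mul, ← map_mul, ← map_mul, ← map_mul]
    exact congrArg φ (Subtype.ext (e t ht))
  obtain ⟨K, hK, hc⟩ : ∃ K, IsComponent K ∧ ¬ mim φ A ≤ 𝐂(K) := by
    by_contra hc
    push Not at hc
    have n := normal_of_cent_comp cf.sc hO hc
    refine main fun c m c1 t ht => ⟨2, ?_⟩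
    obtain ⟨d, hd, e⟩ := sqm c m c1
    have := cf.sq _ (mul_mem (n.conj_mem (g := φ t) trivial hd) (inv_mem hd))
    rw [e t ht] at this
    rw [← this, show 2 ^ 2 = 2 + 2 from rfl, pow_add, pow_two]
  haveI := hK.2.2
  have p := pr_mk K
  have h4 := four_le (p.not_comm hK) (p.sc cf.sc hK) (p.ne_bot cf.sc hO hK hc)
  have c4 : #|mim φ A| ≤ 4 := Nat.le_of_dvd (by norm_num) (h.card ▸ card_mim_dvd φ A)
  have c5 := card_mim_mul (QuotientGroup.mk' (center K)) (inf_le_right : mim φ A ⊓ K ≤ K)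
  rw [mim_inf_dom, p.ker] at c5
  have c6 := card_le_of_le' (inf_le_left : mim φ A ⊓ K ≤ _)
  have c7 : 0 < #|K ⊓ 𝐂(K) ⊓ (mim φ A ⊓ K)| := Nat.card_pos
  have AK : mim φ A ≤ K := inf_eq_left.1 (eq_of_le_of_card_le inf_le_left (by nlinarith))
  have AC : ∀ u ∈ mim φ A, u ∈ 𝐂(K) → u = 1 := fun u hu hu' => by
    have : K ⊓ 𝐂(K) ⊓ (mim φ A ⊓ K) = ⊥ := card_eq_one.1 (by nlinarith)
    exact mem_bot.1 (this.le ⟨⟨AK hu, hu'⟩, hu, AK hu⟩)
  have nK : K ⊴ ⊤ := ⟨le_top, fun y _ => conj_eq_self_iff.1 (by_contra fun ne => by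
    obtain ⟨e, he, n, hn, rfl⟩ := cf.dec y
    rw [mul_conj, conj_of_mem_norm (layer_le_norm (comp_conj hK n) he)] at ne
    exact hc (((conj_of_mem_norm hn).ge.trans (conj_mono n AK)).trans
      (comp_ne hK (comp_conj hK n) (Ne.symm ne))))⟩
  have k1 : mim φ (KK A Y) ≤ K := (mim_le_iff (KK_le hA)).2 (KK_le_of fun y hy =>
    le_mpre_of_mim_le (conj_le_of_mem hy hA) (by
      rw [mim_conj φ ⟨y, hy⟩]; exact conj_le_of_mem_norm (nK.norm trivial) AK))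
  have k2 : K ≤ mim φ (KK A Y) := (comp_le_or hK ((le_top.trans p1.ge).trans
    (mim_le_norm φ (norm_KK A Y)))).resolve_right fun e => hc ((mim_mono φ (self_le_KK A Y)).trans e)
  rcases p.dich (ih.comp (card_lt_of_surj hY su) hK) cf.sc cf.sq hO hK hc with ⟨S, e0, rk, p2'⟩ | ab'
  · refine absurd (fun c m c1 t ht => ?_) main
    obtain ⟨d, hd, e⟩ := sqm c m c1
    have ot : ∀ s : Y, (s : G) ∈ TT A c → Odd (orderOf (φ s)) := fun s hs => (h.odd_T m hs).of_dvd_nat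
      ((orderOf_map_dvd φ _).trans (orderOf_coe _).symm.dvd)
    have tK : ∀ s : Y, (s : G) ∈ TT A c → φ s ∈ K := fun s hs => Sz.mem_of_sq_mem_of_odd (ot s hs)
      (e s hs ▸ mul_mem (nK.conj_mem trivial (AK hd)) (inv_mem (AK hd)))
    obtain ⟨u, hu, uu, u1, us⟩ := rk
    have nT : S.Q0 ≤ 𝐍(mim (QuotientGroup.mk' (center K)) (mim φ (TT A c))) :=
      e0 ▸ mim_le_norm _ (mim_le_norm φ (right_le_norm_comm _ _))
    have h5 := Be.le_of_four (sys_se S) (odd_mim (odd_mim (odd_of_le (odd_core _)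
      (comm_le_left (norm_Oc (h.sq.cent1 m)))) φ) _) (S.QH hu) (S.QH S.sQ) (Be.two_of_sq uu u1)
      (Be.two_of_sq S.ss S.s1) us (S.inv_central hu uu S.sQ) (nT ⟨hu, uu⟩) (nT ⟨S.sQ, S.ss⟩)
      (mem_mim_of_mem _ ⟨φ t, tK t ht⟩ (mem_mim_of_mem φ t ht))
    have h6 : QuotientGroup.mk' (center K) ⟨d, AK hd⟩ ∈ S.Q := S.Q0_le (e0 ▸ mem_mim_of_mem _ _ hd)
    have h7 := mul_mem (S.Qn _ h5 _ h6) (inv_mem h6)
    rw [← map_inv, ← map_inv, ← map_mul, ← map_mul, ← map_mul,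
      show (⟨φ t, tK t ht⟩ * ⟨d, AK hd⟩ * (⟨φ t, tK t ht⟩ : K)⁻¹ * (⟨d, AK hd⟩ : K)⁻¹ : K) =
        ⟨φ t, tK t ht⟩ * ⟨φ t, tK t ht⟩ from Subtype.ext (e t ht), map_mul] at h7
    have o2 : Odd (orderOf (QuotientGroup.mk' (center K) ⟨φ t, tK t ht⟩)) := (ot t ht).of_dvd_nat
      ((orderOf_map_dvd _ _).trans (orderOf_coe _).symm.dvd)
    have h8 := p.eq_one.1 (eq_one_of_isPGroup_of_coprime p2' (Sz.mem_of_sq_mem_of_odd o2 h7)
      (Nat.coprime_two_right.2 o2))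
    obtain ⟨k, hk⟩ := zent_two hO hK ⟨φ t, tK t ht, h8⟩
    exact ⟨k, congrArg Subtype.val hk⟩
  have inj : ∀ u (hu : u ∈ A), φ ⟨u, hA hu⟩ = 1 → u = 1 := fun u hu e =>
    mem_bot.1 ((inf_eq_bot_of_two h.sq.two oO).le ⟨coe_mem_mker.2 e, hu⟩)
  obtain ⟨v, hv, v1, vx⟩ := exists_third h.card.ge x
  obtain ⟨d, hd, e⟩ := (cf.ck K hK hc).tr _ (mem_mim_of_mem φ ⟨x, hA hx⟩ hx) _
    (mem_mim_of_mem φ ⟨v, hA hv⟩ hv) (fun m => x1 (inj x hx (AC _ (mem_mim_of_mem φ _ hx) m)))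
    (fun m => v1 (inj v hv (AC _ (mem_mim_of_mem φ _ hv) m)))
  obtain ⟨ρ, hρ, rfl⟩ := mem_mim.1 (lift h.sc (self_le_KK A Y) (KK_le hA) ⟨k2 hd.1, hd.2⟩)
  have m1 : (ρ : G) * x * (ρ : G)⁻¹ * v⁻¹ ∈ A := mul_mem ((mem_normalizer_iff.1 hρ.2 x).1 hx) (inv_mem hv)
  rw [← map_inv, ← map_inv, ← map_mul, ← map_mul, ← map_mul] at e
  have e1 : (ρ : G) * x * (ρ : G)⁻¹ = v := mul_inv_eq_one.1 (inj _ m1 (AC _ (mem_mim_of_mem φ _ m1) e))
  refine ⟨⟨ρ, hρ, fun m => vx (by rw [← e1, ← mem_cent.1 m x hx, mul_inv_cancel_right])⟩,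
    fun R hR r2 hAR r hr => ?_⟩
  have nC : Y ≤ 𝐍(𝐂(mker φ)) := le_norm_cent (dom_le_norm_mker φ)
  have AO : A ≤ 𝐂(mker φ) := by
    have m2 : x ∈ A ⊓ 𝐂(mker φ) := ⟨hx, le_cent1_iff.1 hxO⟩
    have m3 : v ∈ A ⊓ 𝐂(mker φ) := ⟨hv, e1 ▸ le_norm_iff.1 nC ρ ρ.2 x m2.2⟩
    obtain ⟨k, hk⟩ := pgroup_card Nat.prime_two (h.sq.two.to_le (inf_le_left : A ⊓ 𝐂(mker φ) ≤ A))
    have h3 : 3 ≤ #|A ⊓ 𝐂(mker φ)| := by
      have : ({1, x, v} : Set G).ncard = 3 := Set.ncard_eq_three.2 ⟨1, x, v, x1.symm, v1.symm, vx.symm, rfl⟩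
      rw [← this]
      exact Set.ncard_le_ncard (t := ((A ⊓ 𝐂(mker φ) : Subgroup G) : Set G)) (fun z hz => by
        rcases hz with rfl | rfl | rfl; exacts [one_mem _, m2, m3]) (Set.toFinite _)
    refine inf_eq_left.1 (eq_of_le_of_card_le inf_le_left ?_)
    rw [h.card]
    match k, hk with
    | 0, hk => omega
    | 1, hk => omega
    | k + 2, hk => rw [hk, pow_add]; exact Nat.le_mul_of_pos_left _ (by positivity)
  have KO : KK A Y ≤ 𝐂(mker φ) := KK_le_of fun y hy => conj_le_of_mem_norm (nC hy) AO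
  have hs : L.IsSylowIn 2 (mim φ A ⊔ zent K) K := by
    have := ab'.syl
    rw [← p.top] at this
    have := ((sylow_hall Nat.prime_two this).mpre le_rfl (mker_le _) (p.ker ▸
      (piGrp_iff_isPGroup Nat.prime_two).2 (zent_two hO hK))).sylow Nat.prime_two
    rwa [mpre_mim _ AK, p.ker] at this
  obtain ⟨_, ⟨u, hu, rfl⟩, c, hc', e2⟩ := ((NormalIn.cent_norm K).mem_sup' (le_top.trans nK.norm)).1
    (le_sup_cent hK AK hs (mim_mono φ hAR) (pgroup_mim r2 φ) (mim_le_cent φ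
      (le_cent_of_odd_index h.sc h.idx hAR r2)) (le_top.trans nK.norm) (zent_two hO hK)
      (mem_mim_of_mem φ ⟨r, hR hr⟩ hr))
  have hu : (u : G) ∈ A := hu
  have h9 : (u : G)⁻¹ * r ∈ 𝐂(KK A Y) := le_cent1_iff.1 (KK_le_of fun y hy w hw => by
    have wK := le_KK hy hw
    let s : Y := u⁻¹ * ⟨r, hR hr⟩
    let w' : Y := ⟨w, KK_le hA wK⟩
    have e3 : φ s = c := by rw [map_mul, map_inv, ← e2, inv_mul_cancel_left]
    have e4 : ((w'⁻¹ * (s * w' * s⁻¹) : Y) : G) ∈ mker φ := coe_mem_mker.2 (by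
      rw [map_mul, map_mul, map_mul, map_inv, map_inv, e3,
        ← mem_cent.1 hc' _ (k1 (mem_mim_of_mem φ w' wK))]; group)
    have w2 : w * w = 1 := by
      obtain ⟨z, hz, rfl⟩ := mem_conj'.1 hw
      calc _ = y * (z * z) * y⁻¹ := by group
        _ = 1 := by rw [h.sq z hz]; group
    have e5 := mem_cent.1 (KO wK) _ e4
    have e6 := Sz.eq_one_of_odd_of_sq (Be.odd_orderOf_of_mem oO e4) (by
      change (w⁻¹ * (s * w * (s : G)⁻¹)) * (w⁻¹ * (s * w * (s : G)⁻¹)) = 1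
      change (w⁻¹ * (s * w * (s : G)⁻¹)) * w = w * (w⁻¹ * (s * w * (s : G)⁻¹)) at e5
      rw [inv_eq_of_mul_eq_one_right w2] at e5 ⊢
      rw [← mul_assoc _ w, e5]
      calc _ = w * w * (s * (w * w) * (s : G)⁻¹) := by group
        _ = 1 := by rw [w2]; group)
    change w⁻¹ * (s * w * (s : G)⁻¹) = 1 at e6
    rw [inv_mul_eq_one, eq_mul_inv_iff_mul_eq] at e6
    exact mem_cent1.2 e6)
  simpa using mul_mem_sup hu h9⟩

end Cfsg.Agent.Go
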